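import Cfsg.Agent.H4.St2
import Cfsg.Prelude.Def_LinearParabolics

/-! Unipotent characters of `GL_n`, I: Bruhat decomposition and double cosets of parabolics. -/

set_option autoImplicit false
set_option linter.unusedSectionVars false

namespace H4.GLU

open Cfsg H3 Matrix Finset
open scoped MatrixGroups

variable {n : ℕ} {F : Type*} [Field F]

variable (F) in
noncomputable def pm : Equiv.Perm (Fin n) →* GL (Fin n) F :=
  (permMatrixHom (R := F)).toHomUnits

theorem pm_apply (w : Equiv.Perm (Fin n)) (x y : Fin n) :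
    (pm F w).1 x y = if x = w y then 1 else 0 := by
  simp [pm, PEquiv.toMatrix_apply, Equiv.toPEquiv_apply, Equiv.symm_apply_eq, Equiv.Perm.inv_def]

theorem mul_pm (g : GL (Fin n) F) (w : Equiv.Perm (Fin n)) (x y : Fin n) :
    (g * pm F w).1 x y = g.1 x (w y) := by
  simp [Matrix.mul_apply, pm_apply]

theorem pm_mul (g : GL (Fin n) F) (w : Equiv.Perm (Fin n)) (x y : Fin n) :
    (pm F w * g).1 x y = g.1 (w⁻¹ x) y := by
  simp [Matrix.mul_apply, pm_apply, ← Equiv.Perm.inv_eq_iff_eq]

theorem row_ne (g : GL (Fin n) F) (i : Fin n) : ∃ j, g.1 i j ≠ 0 := by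
  by_contra! h
  exact g.det_ne_zero (det_eq_zero_of_row_eq_zero i h)

theorem bruhat (g : GL (Fin n) F) : ∃ b ∈ upperTriangularGL n F, ∃ w,
    ∃ b' ∈ upperTriangularGL n F, g = b * pm F w * b' := by
  obtain ⟨c, ⟨b, hb, hc⟩, hm⟩ := Set.Finite.exists_maximal (Set.toFinite {c : Fin n → Fin n |
    ∃ b ∈ upperTriangularGL n F, ∀ i j, j < c i → (b * g).1 i j = 0})
    ⟨fun i => ⟨0, i.pos⟩, 1, one_mem _, fun i j h => absurd h (by simp [Fin.lt_def])⟩
  have step : ∀ b ∈ upperTriangularGL n F, (∀ i j, j < c i → (b * g).1 i j = 0) →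
      ∀ i, (b * g).1 i (c i) ≠ 0 := fun b hb hc i h0 => by
    obtain ⟨j, hj⟩ := row_ne (b * g) i
    have hlt : c i < j := lt_of_le_of_ne (not_lt.1 fun k => hj (hc _ _ k)) fun e => hj (e ▸ h0)
    have k := hm (y := Function.update c i ⟨c i + 1, by omega⟩) ⟨b, hb, fun x y hxy => by
      by_cases e : x = i
      · subst e
        rw [Function.update_self, Fin.lt_def, Nat.lt_succ_iff, ← Fin.le_def] at hxy
        exact hxy.eq_or_lt.elim (fun e => e ▸ h0) (hc _ _)
      · exact hc _ _ (by rwa [Function.update_of_ne e] at hxy)⟩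
      (le_update_self_iff.2 (by simp [Fin.le_def])) i
    simp [Fin.le_def] at k
  have inj : ∀ i j, i < j → c i ≠ c j := fun i j hij e => by
    let a := -(b * g).1 i (c i) / (b * g).1 j (c j)
    have k : ∀ x y, (GeneralLinearGroup.mkOfDetNeZero (transvection i j a)
        (by simp [det_transvection_of_ne _ _ hij.ne]) * b * g).1 x y =
          (b * g).1 x y + if x = i then a * (b * g).1 j y else 0 := fun x y => by
      rw [mul_assoc, Units.val_mul]
      show (transvection i j a * _ : Matrix _ _ F) x y = _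
      split_ifs with h
      · rw [h, transvection_mul_apply_same]
      · rw [transvection_mul_apply_of_ne _ _ _ _ h, add_zero]
    refine step (GeneralLinearGroup.mkOfDetNeZero (transvection i j a)
        (by simp [det_transvection_of_ne _ _ hij.ne]) * b) (mul_mem
      (show _ ∈ upperTriangularGL n F from blockTriangular_transvection (b := id) hij.le a) hb)
      (fun x y h => ?_) i ?_
    · rw [k, hc _ _ h]
      split_ifs with h'
      · rw [hc j y (by rwa [← e, ← h']), mul_zero, add_zero]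
      · rw [add_zero]
    · rw [k, if_pos rfl, e, div_mul_cancel₀ _ (step b hb hc j), e, add_neg_cancel]
  have hi : Function.Injective c := fun i j e => by
    rcases lt_trichotomy i j with h | h | h
    exacts [absurd e (inj i j h), h, absurd e.symm (inj j i h)]
  let w := Equiv.ofBijective c (Finite.injective_iff_bijective.1 hi)
  refine ⟨b⁻¹, inv_mem hb, w⁻¹, pm F w * (b * g), fun x y h => ?_, by simp [mul_assoc]⟩
  rw [pm_mul]
  exact hc _ _ (by rwa [show c (w⁻¹ x) = x from w.apply_symm_apply x])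

theorem eq_of_le {a : Fin n → ℕ} {u v : Equiv.Perm (Fin n)} (h : ∀ y, a (u y) ≤ a (v y)) (y) :
    a (u y) = a (v y) :=
  (sum_eq_sum_iff_of_le fun y _ => h y).1
    ((Equiv.sum_comp u a).trans (Equiv.sum_comp v a).symm) y (mem_univ y)

theorem mono_label (μ : Fin n → ℕ) : Monotone (compLabel μ) := fun i j h =>
  card_le_card fun k => by simpa using fun e => e.trans h

theorem dbl {μ ν : Fin n → ℕ} {s : Finset (Equiv.Perm (Fin n))}
    (hs : IsDblReps (youngSubgroup μ) (youngSubgroup ν) s) [DecidableEq (GL (Fin n) F)] :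
    IsDblReps (parabolicGL n F μ) (parabolicGL n F ν) (s.image (pm F)) ∧
      (s.image (pm F)).card = s.card := by
  have hB : ∀ μ, upperTriangularGL n F ≤ parabolicGL n F μ := fun μ g hg i j h =>
    hg (mono_label μ |>.reflect_lt h)
  have hY : ∀ μ, ∀ σ ∈ youngSubgroup μ, pm F σ ∈ parabolicGL n F μ := fun μ σ h i j k => by
    rw [pm_apply, if_neg fun e => k.ne' (by rw [e, h j])]
  have key : ∀ w w', ∀ p ∈ parabolicGL n F μ, ∀ q ∈ parabolicGL n F ν,
      p * pm F w = pm F w' * q → ∃ a ∈ youngSubgroup μ, ∃ h ∈ youngSubgroup ν,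
        w' = a * w * h := fun w w' p hp q hq e => by
    have h0 := (p * pm F w).det_ne_zero
    rw [det_apply] at h0
    obtain ⟨σ, -, hσ⟩ := exists_ne_zero_of_sum_ne_zero h0
    have h1 : ∀ y, (p * pm F w).1 (σ y) y ≠ 0 := fun y k =>
      hσ (by rw [prod_eq_zero (f := fun i => (p * pm F w).1 (σ i) i) (mem_univ y) k, smul_zero])
    refine ⟨σ * w⁻¹, fun i => ?_, (w'⁻¹ * σ)⁻¹, inv_mem fun i => ?_, by group⟩
    · simpa using eq_of_le (u := σ) (v := w)
        (fun y => not_lt.1 fun k => h1 y (by rw [mul_pm]; exact hp k)) (w⁻¹ i)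
    · exact eq_of_le (u := w'⁻¹ * σ) (v := 1)
        (fun y => not_lt.1 fun k => h1 y (by rw [e, pm_mul]; exact hq k)) i
  refine ⟨fun x => ?_, card_image_of_injective _ fun u v e => Equiv.ext fun y => ?_⟩
  · obtain ⟨b, hb, w, b', hb', rfl⟩ := bruhat x
    obtain ⟨w0, ⟨h0, a, ha, h, hh, rfl⟩, hu⟩ := hs w
    refine ⟨pm F w0, ⟨mem_image_of_mem _ h0, b * pm F a, mul_mem (hB _ hb) (hY _ _ ha),
      pm F h * b', mul_mem (hY _ _ hh) (hB _ hb'), by simp [mul_assoc]⟩, ?_⟩
    rintro _ ⟨k, p, hp, q, hq, e⟩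
    obtain ⟨w1, h1, rfl⟩ := mem_image.1 k
    rw [hu w1 ⟨h1, key w1 _ (b⁻¹ * p) (mul_mem (inv_mem (hB _ hb)) hp) (b' * q⁻¹)
      (mul_mem (hB _ hb') (inv_mem hq)) (by
        rw [mul_assoc, inv_mul_eq_iff_eq_mul, ← mul_assoc, ← mul_assoc, e]; group)⟩]
  · have := pm_apply (F := F) u (u y) y
    rw [e, pm_apply, if_pos rfl] at this
    by_contra k; simp [k] at this

theorem inner_fix {G : Type*} [Group G] [Fintype G] {K H : Subgroup G} {s : Finset G}
    (hs : IsDblReps K H s) : classInner (fixedPointCharacter H) (fixedPointCharacter K) = s.card := by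
  have := St.inner_ind2 _ _ hs 1 1
  simp only [MonoidHom.one_apply, implies_true, if_true, sum_const, nsmul_one] at this
  rw [← this]
  congr 1 <;> exact (indFun_one_eq_perm _).symm

theorem exists_lab {μ : Fin n → ℕ} (h : ∑ i, μ i = n) : ∃ a : Fin n → Fin n,
    (∀ i, compLabel μ i = a i) ∧ ∀ s, #{i | a i = s} = μ s := by
  have h1 : ∀ i s : Fin n, s < compLabel μ i ↔ ∑ k with k ≤ s, μ k ≤ i := fun i s =>
    Fin.lt_card_filter_univ_iff_apply_of_imp _ fun x y e k => le_trans (sum_le_sum_of_subset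
      fun z => by simpa using fun k => k.trans e) k
  have h2 : ∀ i, compLabel μ i < n := fun i => by
    have := (h1 i ⟨n - 1, by have := i.2; omega⟩).not.2 (by
      rw [filter_true_of_mem fun x _ => by rw [Fin.le_def]; have := x.2; simp; omega, h]; simp)
    have := i.2
    simp only [not_lt] at *; omega
  have h3 : ∀ s : Fin n, ∑ k with k ≤ s, #{i | (⟨_, h2 i⟩ : Fin n) = k} = ∑ k with k ≤ s, μ k :=
    fun s => by
    rw [sum_card_fiberwise_eq_card_filter, ← Fin.card_filter_val_lt (n := n)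
      (m := ∑ k with k ≤ s, μ k) |>.trans (min_eq_right ((sum_le_sum_of_subset (filter_subset _ _)).trans_eq h))]
    congr 1; ext i
    simp only [mem_filter, mem_univ, true_and]
    rw [← not_le (a := ∑ k with k ≤ s, μ k), ← h1, not_lt]; rfl
  refine ⟨fun i => ⟨_, h2 i⟩, fun _ => rfl, fun s => ?_⟩
  induction s using WellFoundedLT.induction with
  | _ s ih =>
  have := h3 s
  rw [show (univ.filter (· ≤ s)) = insert s (univ.filter (· < s)) by ext; simp [le_iff_eq_or_lt],
    sum_insert (by simp), sum_insert (by simp), sum_congr rfl fun k hk => ih k (by simpa using hk)]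
    at this
  exact Nat.add_right_cancel this

/-- contingency matrices -/
noncomputable def cont (α β : Fin n → ℕ) : Finset (Fin n → Fin n →₀ ℕ) :=
  {M ∈ Fintype.piFinset fun t => finsuppAntidiag univ (β t) | ∀ s, ∑ t, M t s = α s}

theorem exists_eq_comp {L X Y : Type*} [Fintype X] [Fintype Y] [DecidableEq L] {a : X → L}
    {b : Y → L} (h : ∀ s, #{i | a i = s} = #{i | b i = s}) : ∃ e : X ≃ Y, ∀ x, b (e x) = a x :=
  ⟨Equiv.ofFiberEquiv fun s => Fintype.equivOfCardEq (by
    rw [Fintype.card_subtype, Fintype.card_subtype, h]), Equiv.ofFiberEquiv_map _⟩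

theorem card_dbl {μ ν : Fin n → ℕ} (hμ : ∑ i, μ i = n) (hν : ∑ i, ν i = n)
    {s : Finset (Equiv.Perm (Fin n))} (hs : IsDblReps (youngSubgroup μ) (youngSubgroup ν) s) :
    s.card = (cont μ ν).card := by
  obtain ⟨a, ha, ha'⟩ := exists_lab hμ
  obtain ⟨b, hb, hb'⟩ := exists_lab hν
  have hY : ∀ σ, σ ∈ youngSubgroup μ ↔ ∀ i, a (σ i) = a i := fun σ => by
    simp only [Fin.ext_iff, ← ha]; rfl
  have hY' : ∀ σ, σ ∈ youngSubgroup ν ↔ ∀ i, b (σ i) = b i := fun σ => by
    simp only [Fin.ext_iff, ← hb]; rfl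
  let C : Equiv.Perm (Fin n) → Fin n → Fin n →₀ ℕ := fun w t =>
    Finsupp.equivFunOnFinite.symm fun s => #{y | (a (w y), b y) = (s, t)}
  have hC : ∀ w w', C w = C w' → ∃ u ∈ youngSubgroup μ, ∃ v ∈ youngSubgroup ν,
      w = u * w' * v := fun w w' e => by
    obtain ⟨τ, h⟩ := exists_eq_comp (a := fun y => (a (w y), b y)) (b := fun y => (a (w' y), b y))
      fun x => DFunLike.congr_fun (congrFun e x.2) x.1
    refine ⟨w * τ⁻¹ * w'⁻¹, (hY _).2 fun i => ?_, τ, (hY' _).2 fun i => congrArg Prod.snd (h i),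
      by group⟩
    simpa using (congrArg Prod.fst (h (τ⁻¹ (w'⁻¹ i)))).symm
  refine card_bij (fun w _ => C w) (fun w _ => ?_) (fun w h w' h' e => ?_) fun M hM => ?_
  · simp only [cont, C, mem_filter, Fintype.mem_piFinset, mem_finsuppAntidiag, subset_univ,
      and_true, Finsupp.coe_equivFunOnFinite_symm]
    refine ⟨fun t => ?_, fun x => ?_⟩
    · rw [← hb', card_eq_sum_card_fiberwise (f := fun y => a (w y)) (t := univ) (by simp)]
      simp [filter_filter, and_comm]
    · rw [← ha', ← card_equiv w (s := {y | a (w y) = x}) (by simp),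
        card_eq_sum_card_fiberwise (f := b) (t := univ) (by simp)]
      simp [filter_filter]
  · exact (hs w).unique ⟨h, 1, one_mem _, 1, one_mem _, by simp⟩ ⟨h', hC _ _ e⟩
  · simp only [cont, mem_filter, Fintype.mem_piFinset, mem_finsuppAntidiag, subset_univ,
      and_true] at hM
    have k : ∀ p : Fin n × Fin n → Prop, ∀ [DecidablePred p],
        #{z : Σ x : Fin n × Fin n, Fin (M x.2 x.1) | p z.1} = ∑ x with p x, M x.2 x.1 := fun p _ => by
      rw [show (univ.filter fun z : Σ x : Fin n × Fin n, Fin (M x.2 x.1) => p z.1) =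
        (univ.filter p).sigma fun _ => univ by ext; simp, card_sigma]; simp
    obtain ⟨e1, h1⟩ := exists_eq_comp (a := fun z : Σ x : Fin n × Fin n, Fin (M x.2 x.1) => z.1.1)
      (b := a) fun x => by
        rw [k (·.1 = x), ha', ← hM.2, sum_filter, Fintype.sum_prod_type_right]; simp
    obtain ⟨e2, h2⟩ := exists_eq_comp (a := fun z : Σ x : Fin n × Fin n, Fin (M x.2 x.1) => z.1.2)
      (b := b) fun x => by
        rw [k (·.2 = x), hb', ← hM.1, sum_filter, Fintype.sum_prod_type]; simp
    obtain ⟨w, ⟨h0, u, hu, v, hv, e⟩, -⟩ := hs (e2.symm.trans e1)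
    refine ⟨w, h0, funext fun t => Finsupp.ext fun x => ?_⟩
    have := k (· = (x, t))
    rw [filter_eq', if_pos (mem_univ _), sum_singleton] at this
    rw [← this]
    show #{y | (a (w y), b y) = (x, t)} = _
    refine (card_equiv (e2.trans v) fun z => ?_).symm
    have := congrArg a (DFunLike.congr_fun e (e2 z))
    simp only [Equiv.trans_apply, Equiv.symm_apply_apply, h1, Equiv.Perm.mul_apply,
      (hY u).1 hu] at this
    simp only [mem_filter, mem_univ, true_and, Equiv.trans_apply, ← this, (hY' v).1 hv _, h2]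

theorem inner_par [Fintype (GL (Fin n) F)] {μ ν : Fin n → ℕ} (hμ : ∑ i, μ i = n)
    (hν : ∑ i, ν i = n) : classInner (fixedPointCharacter (parabolicGL n F ν))
      (fixedPointCharacter (parabolicGL n F μ)) = (cont μ ν).card := by
  classical
  obtain ⟨s, hs, -⟩ := exists_dblReps (youngSubgroup μ) (youngSubgroup ν)
  rw [inner_fix (dbl hs).1, (dbl hs).2, card_dbl hμ hν hs]

end H4.GLU
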