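import Cfsg.Agent.H4.Kb
import Cfsg.Agent.H4.BS

/-!
# Bounds for the number of characters of height zero
-/

set_option autoImplicit false
set_option linter.unusedSectionVars false

namespace H4
open MonoidAlgebra Cfsg H1 H3
open scoped Pointwise ComplexConjugate

variable {G G' : Type*} [Group G] [Finite G] [Group G'] [Finite G'] {M : Ideal AlgInt} {p : ℕ} [hp : Fact p.Prime]
  {f : G →* G'} {B : Set (IrrCharacter G)} {B' : Set (IrrCharacter G')} {θ η : G → ℂ} {D : Subgroup G}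

theorem Sec.card_le_of_rt' {H : Subgroup G} [Fintype H] {z : H} {b : Set (IrrCharacter H)} (hM : IsPModular p M)
    (hz : Sec p z) (hind : IsInducedBlock M H b B) {T : Finset (IrrCharacter G)} (hT : ∀ χ ∈ T, χ ∈ B ∧ sb p z b χ.1 ≠ 0) {ι : Type*} {s : Finset ι}
    {φ : ι → H → ℂ} {c : ℝ} (h : Rt p b s φ c) : T.card ≤ c := by
  classical
  cases nonempty_fintype G
  obtain ⟨n, hn⟩ := hz.exists_pow
  let L : ι → (H → ℂ) →ₗ[ℂ] ℂ := fun i =>
    ⟨⟨fun a => classInner a (φ i), fun a b => H3.inner_add_left a b _⟩, fun c a => H3.inner_smul_left c a _⟩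
  have d1 : ∀ χ : IrrCharacter G, ∀ i ∈ s, (fun k => classInner (sb p (z ^ k) b χ.1) (φ i)) ∈ SF (p ^ (n + 1)) :=
    fun χ i hi => GV.map (L i) (by
      rintro _ ⟨θ, h1, -, rfl⟩
      obtain ⟨m, hm⟩ := inner_gen_int h1 (h.gen i hi)
      exact mem_zmul_iff.2 ⟨m, .trans (by rw [← reg_of_mem_RS (h.mem i hi), ← inner_reg_left]; rfl) hm⟩)
      (sb_mem_GV hz.center hn b (irr_gen χ.2))
  have d2 : ∀ χ ∈ T, (2 : ℝ) ≤ ∑ i ∈ s, avg p n fun k => ‖classInner (sb p (z ^ k) b χ.1) (φ i)‖ ^ 2 := fun χ hχ => by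
    obtain ⟨i, hi, h1⟩ : ∃ i ∈ s, classInner (sb p z b χ.1) (φ i) ≠ 0 := by
      by_contra! h1
      exact (hT χ hχ).2 (h.sep _ (sb_mem _ _ _) h1)
    obtain ⟨j, hj, h2⟩ : ∃ j ∈ s.erase i, classInner (sb p z b χ.1) (φ j) ≠ 0 := by
      by_contra! h2
      have := congrArg (classInner (sb p z b χ.1)) h.sum
      rw [H3.inner_sum_right, ← Finset.add_sum_erase _ _ hi, Finset.sum_eq_zero h2] at this
      simp [h1] at this
    have h3 : ∀ i ∈ s, classInner (sb p z b χ.1) (φ i) ≠ 0 →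
        (1 : ℝ) ≤ avg p n fun k => ‖classInner (sb p (z ^ k) b χ.1) (φ i)‖ ^ 2 := fun i hi h1 => by
      simpa [avg] using (le_div_iff₀' card_Kp_pos).2 (SF.le_sum_norm hM (d1 χ i hi) (by simpa using h1) (j := 0) (fun k _ => by
        simpa using mem_O_iff.1 (mem_O_of_isIntegral (SF.integral (pow_ne_zero _ hp.out.ne_zero) (d1 χ i hi) k))) 2)
    obtain ⟨h4, h5⟩ := Finset.mem_erase.1 hj
    refine le_trans ?_ (Finset.sum_le_sum_of_subset_of_nonneg (s := {j, i}) (by simp [Finset.insert_subset_iff, hi, h5])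
      fun _ _ _ => div_nonneg (Finset.sum_nonneg fun _ _ => by positivity) (Nat.cast_nonneg _))
    rw [Finset.sum_pair h4]; linarith [h3 i hi h1, h3 j h5 h2]
  have d3 := (Finset.sum_le_sum d2).trans (Finset.sum_le_sum_of_subset_of_nonneg (t := fs B) (fun χ hχ => mem_fs.2 (hT χ hχ).1)
    fun _ _ _ => Finset.sum_nonneg fun _ _ => div_nonneg (Finset.sum_nonneg fun _ _ => by positivity) (Nat.cast_nonneg _))
  rw [Finset.sum_comm, Finset.sum_const, nsmul_eq_mul, Finset.sum_congr rfl fun i hi => (avg_sum _ _).trans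
    (avg_eq (c := (classInner (φ i) (φ i)).re) fun k hk => ?_)] at d3
  · linarith [h.le]
  rw [← (hz.pow hk).gram hM hind (h.mem i hi) (h.mem i hi), Complex.re_sum]
  exact Finset.sum_congr rfl fun χ _ => by
    rw [← H3.inner_conj_symm _ (φ i), mul_comm, Complex.mul_conj', ← Complex.ofReal_pow, Complex.ofReal_re]

theorem reg_of_defect_zero (hM : IsPModular p M) (hB : IsPBlock M B) (h : blockDefect p B = 0) {χ : IrrCharacter G}
    (hχ : χ ∈ B) : reg p χ.1 = χ.1 := funext fun g => by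
  by_cases e : p ∣ orderOf g
  · have := KB_eq_zero_weak' hM hB e (not_dvd_orderOf_one hp.out)
    rw [KB, eq_singleton_of_defect hM hB h hχ, show fs ({χ} : Set (IrrCharacter G)) = {χ} by ext; simp,
      Finset.sum_singleton] at this
    rw [reg_of_dvd _ e, (mul_eq_zero.1 this).resolve_right (by simpa using irr_one_ne_zero χ.2)]
  · exact reg_of_not_dvd _ e

theorem rt_zero [Fintype G] (hM : IsPModular p M) (hB : IsPBlock M B) (h : blockDefect p B = 0) :
    ∃ φ : Bool → G → ℂ, Rt p B Finset.univ φ 1 := by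
  obtain ⟨χ, hχ⟩ := block_nonempty hM hB
  have h1 := reg_of_defect_zero hM hB h hχ
  have h2 : χ.1 ∈ RS p B := h1 ▸ LS_le_RS (reg_mem_LS hχ)
  refine ⟨fun i => if i then χ.1 else -χ.1, fun i _ => ?_, fun i _ => ?_, by simp, fun a ha h3 => ?_, ?_⟩
  · cases i; exacts [gen_neg (irr_gen χ.2), irr_gen χ.2]
  · cases i; exacts [neg_mem h2, h2]
  · have h4 := h3 true (Finset.mem_univ _)
    have h5 := ((RC.of_block hM hB).mem_iff.1 ha).2
    rw [← h5, eq_singleton_of_defect hM hB h hχ, blockPart_congr_inner (b := 0) fun ψ hψ => by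
      rw [Set.mem_singleton_iff.1 hψ]; simpa using h4]
    simpa using blockPart_smul {χ} 0 (0 : G → ℂ)
  · simp [H3.inner_neg_left, H3.inner_neg_right, irr_inner_self χ.2]; norm_num

theorem Sec.card_le_of_cyc {H : Subgroup G} {z : H} {b : Set (IrrCharacter H)} (hM : IsPModular p M) (hz : Sec p z)
    (hind : IsInducedBlock M H b B) {T : Finset (IrrCharacter G)} (hT : ∀ χ ∈ T, χ ∈ B ∧ blockHeight p B χ.1 = 0)
    {D : Subgroup H} (hD : IsDefectGroup p M b D) [(Subgroup.zpowers z).Normal]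
    (hc : IsCyclic (D.map (QuotientGroup.mk' (Subgroup.zpowers z)))) (h5 : Subgroup.zpowers z ≤ D) : T.card ≤ Nat.card D := by
  have h4 : Subgroup.zpowers z ≤ Subgroup.center _ := Subgroup.zpowers_le.2 hz.center
  have hf := QuotientGroup.mk'_surjective (Subgroup.zpowers z)
  have hk : IsPGroup p (QuotientGroup.mk' (Subgroup.zpowers z)).ker := by
    rw [QuotientGroup.ker_mk']; exact (dg_isPGroup hD).to_le h5
  have H' : ∀ g, ¬ p ∣ orderOf g → g ∈ CS (QuotientGroup.mk' (Subgroup.zpowers z)).ker := fun g _ x hx =>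
    (Subgroup.mem_center_iff.1 (h4 (by simpa using hx)) g).symm
  obtain ⟨B', h7, h8, h9⟩ := exists_dg_map hM hf hk hind.1 hD
  have h11 := card_map_mul (QuotientGroup.mk' (Subgroup.zpowers z)) (P := D) (by rwa [QuotientGroup.ker_mk'])
  cases nonempty_fintype (H ⧸ Subgroup.zpowers z)
  cases nonempty_fintype H
  have hT' : ∀ χ ∈ T, χ ∈ B ∧ sb p z b χ.1 ≠ 0 := fun χ h => ⟨(hT χ h).1, hz.Lz_sb hM hind (hT χ h).1 (hT χ h).2⟩
  rw [← h11, mul_comm]
  by_cases h0 : D.map (QuotientGroup.mk' (Subgroup.zpowers z)) = ⊥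
  · have h9 := dg_card hM h7 h9
    rw [h0, Subgroup.card_bot, eq_comm, pow_eq_one_iff_right hp.out.ne_one] at h9
    obtain ⟨φ, h⟩ := rt_zero hM h7 h9
    rw [h0, Subgroup.card_bot]
    exact_mod_cast hz.card_le_of_rt' hM hind hT' (h.lift hM hf hk H' hind.1 h7 h8)
  obtain ⟨s, φ, h⟩ := cyc_rt hM h7 h9 hc h0
  exact_mod_cast hz.card_le_of_rt' hM hind hT' (h.lift hM hf hk H' hind.1 h7 h8)

end H4
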