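import Cfsg.Agent.H4.Kb

/-!
# Small symmetric local algebras
A symmetric local algebra with centre of dimension at most four is commutative; blocks of rank one with few characters.
-/

set_option autoImplicit false
set_option linter.unusedSectionVars false

namespace H4
open MonoidAlgebra Cfsg H1 H3 Module Submodule
open scoped Pointwise

section Alg
variable {F A : Type*} [Field F] [Ring A] [Algebra F A] [FiniteDimensional F A]

/-- the radical, as a subspace -/
def Nj (F A : Type*) [Field F] [Ring A] [Algebra F A] : Submodule F A := (Ideal.jacobson (⊥ : Ideal A)).restrictScalars F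

theorem mem_Nj {x : A} (h : ∀ y, IsNilpotent (x * y)) : x ∈ Nj F A := Ideal.mem_jacobson_iff.2 fun y => by
  obtain ⟨n, hn⟩ := h y
  have h1 : IsNilpotent (y * x) := ⟨n + 1, by rw [pow_succ, ← mul_assoc, mul_pow_mul, hn]; simp⟩
  obtain ⟨u, hu⟩ := h1.isUnit_add_one
  exact ⟨(u⁻¹ : Aˣ), by rw [mul_assoc, ← mul_add_one, ← hu]; simp⟩

theorem exists_Nj_pow (F A : Type*) [Field F] [Ring A] [Algebra F A] [FiniteDimensional F A] :
    ∃ m, Nj F A ^ (m + 1) = ⊥ := by
  haveI : IsArtinianRing A := IsArtinianRing.of_finite F A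
  obtain ⟨m, hm⟩ := IsArtinianRing.isNilpotent_jacobson_bot (R := A)
  have : ∀ n, Nj F A ^ (n + 1) ≤ (Ideal.jacobson (⊥ : Ideal A) ^ (n + 1)).restrictScalars F := fun n => by
    induction n with
    | zero => simp [Nj, Submodule.pow_one]
    | succ n ih => 
      rw [pow_succ, Submodule.pow_succ]
      exact Submodule.mul_le.2 fun a ha b hb => Ideal.mul_mem_mul (ih ha) hb
  refine ⟨m, eq_bot_iff.2 ((this m).trans ?_)⟩
  rw [Submodule.pow_succ, hm]; simp

theorem eq_bot_of_le_mul {J U : Submodule F A} {m : ℕ} (h3 : J ^ (m + 1) = ⊥) (h : U ≤ U * J) : U = ⊥ := by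
  have : ∀ n, U ≤ U * J ^ (n + 1) := fun n => by
    induction n with
    | zero => simpa using h
    | succ n ih => exact h.trans (by rw [pow_succ, ← mul_assoc]; exact mul_le_mul_left ih _)
  simpa [h3] using this m

theorem comm_of_gen {J : Submodule F A} {m : ℕ} (h2 : J * J ≤ J) (h3 : J ^ (m + 1) = ⊥) {a : A} (ha : a ∈ J)
    (h : J ≤ F ∙ a ⊔ J * J) {x y : A} (hx : x ∈ J) (hy : y ∈ J) : x * y = y * x := by
  have k1 : ∀ n, J ^ (n + 1) ≤ F ∙ a ^ (n + 1) ⊔ J ^ (n + 1) * J := fun n => by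
    induction n with
    | zero => simpa using h
    | succ n ih =>
      refine (pow_succ J _).le.trans ((mul_le_mul' ih h).trans ?_)
      rw [Submodule.sup_mul, Submodule.mul_sup, Submodule.mul_sup, span_mul_span, Set.singleton_mul_singleton, ← pow_succ,
        ← pow_succ J]
      refine sup_le (sup_le le_sup_left (le_sup_of_le_right ?_)) (le_sup_of_le_right (sup_le ?_ ?_))
      · rw [← mul_assoc, pow_succ J]
        exact mul_le_mul_left (mul_le_mul_left ((span_singleton_le_iff_mem _ _).2 (Submodule.pow_mem_pow _ ha _)) _) _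
      · exact mul_le_mul_right ((span_singleton_le_iff_mem _ _).2 ha) _
      · exact mul_le_mul_right h2 _
  have k2 : ∀ n, J ≤ (Algebra.adjoin F {a}).toSubmodule ⊔ J ^ (n + 1) := fun n => by
    induction n with
    | zero => simp
    | succ n ih =>
      refine ih.trans (sup_le le_sup_left ((k1 n).trans (sup_le_sup ?_ (pow_succ J _).ge)))
      exact (span_singleton_le_iff_mem _ _).2 (pow_mem (Algebra.self_mem_adjoin_singleton F a) _)
  have k3 := k2 m
  rw [h3, sup_bot_eq] at k3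
  exact Algebra.commute_of_mem_adjoin_self (k3 hy) |> fun h => Algebra.commute_of_mem_adjoin_singleton_of_commute (k3 hx) h.symm |>.symm

theorem two_gen {J : Submodule F A} (h2 : J * J ≤ J) {a b : A} (ha : a ∈ J) (hb : b ∈ J) (h : J ≤ F ∙ b ⊔ (F ∙ a ⊔ J * J))
    (h' : J * J ≤ F ∙ (a * b - b * a) ⊔ J * J * J) : J * J * J ≤ J * J * J * J := by
  set c := a * b - b * a with hc
  have k0 : ∀ x ∈ J, ∀ y ∈ J, ∃ t : F, x * y - t • c ∈ J * J * J := fun x hx y hy => by
    obtain ⟨_, h1, z, h2, e⟩ := mem_sup.1 (h' (mul_mem_mul hx hy))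
    obtain ⟨t, rfl⟩ := mem_span_singleton.1 h1
    exact ⟨t, by rwa [← e, add_sub_cancel_left]⟩
  obtain ⟨α, hα⟩ := k0 a ha a ha
  obtain ⟨β, hβ⟩ := k0 a ha b hb
  obtain ⟨δ, hδ⟩ := k0 b hb b hb
  have hγ : b * a - (β - 1) • c ∈ J * J * J := by convert hβ using 1; rw [hc]; module
  let q := (J * J * J * J).mkQ
  have k : ∀ {x y z : A} {s t : F}, x ∈ J → z ∈ J → x * y - s • c ∈ J * J * J → y * z - t • c ∈ J * J * J →
      s • q (c * z) = t • q (x * c) := fun {x y z s t} hx hz h1 h2 => by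
    have e1 := mul_mem_mul h1 hz
    have e2 := mul_mem_mul hx h2
    rw [← mul_assoc, ← mul_assoc] at e2
    rw [← map_smul, ← map_smul, eq_comm]
    refine (Submodule.Quotient.eq _).2 ?_
    convert sub_mem e1 e2 using 1
    simp [sub_mul, mul_sub, mul_assoc]
  have e1 := k ha ha hα hα
  have e2 := k ha hb hα hβ
  have e3 := k ha ha hβ hγ
  have e4 := k ha hb hβ hδ
  have e5 := k hb ha hγ hα
  have e6 := k hb hb hγ hβ
  have e7 := k hb ha hδ hγ
  have e8 := k hb hb hδ hδ
  have z : ∀ w : A ⧸ J * J * J * J, β ^ 3 • w = 0 → (β - 1) ^ 3 • w = 0 → w = 0 := fun w h1 h2 => by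
    by_cases e : β = 0
    · simpa [e, Odd.neg_one_pow (show Odd 3 by decide)] using h2
    · simpa [e] using h1
  have f1 : α • q (c * a) = 0 := by linear_combination (norm := module) α • e3 - (β - 1) • e1
  have f2 : δ • q (c * b) = 0 := by linear_combination (norm := module) β • e8 - δ • e6
  have u0 : c * a ∈ J * J * J * J := (Submodule.Quotient.mk_eq_zero _).1 (z (q (c * a)) (by
    linear_combination (norm := module) β ^ 2 • e3 - ((β - 1) * β) • e2 + ((β - 1) * α) • e4 - ((β - 1) * δ) • e1 +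
      ((β - 1) * δ) • f1) (by linear_combination (norm := module) (β - 1) ^ 2 • e5 - ((β - 1) * α) • e7 + ((β - 1) * δ) • f1))
  have v0 : c * b ∈ J * J * J * J := (Submodule.Quotient.mk_eq_zero _).1 (z (q (c * b)) (by
    linear_combination (norm := module) β ^ 2 • e4 - (β * δ) • e2 + (β * α) • f2) (by
    linear_combination (norm := module) (β - 1) ^ 2 • e6 - (β * (β - 1)) • e7 + (β * δ) • e5 - (β * α) • e8 + (β * α) • f2))
  have hcJ : c ∈ J * J := sub_mem (mul_mem_mul ha hb) (mul_mem_mul hb ha)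
  refine (mul_le_mul_left h' J).trans ?_
  rw [Submodule.sup_mul]
  refine sup_le ((mul_le_mul_right h _).trans ?_) le_rfl
  rw [Submodule.mul_sup, Submodule.mul_sup, span_mul_span, span_mul_span, Set.singleton_mul_singleton,
    Set.singleton_mul_singleton, ← mul_assoc]
  exact sup_le ((span_singleton_le_iff_mem _ _).2 v0) (sup_le ((span_singleton_le_iff_mem _ _).2 u0)
    (mul_le_mul_left (mul_le_mul_left ((span_singleton_le_iff_mem _ _).2 hcJ) _) _))

/-- a symmetric local algebra with a centre of dimension at most four is commutative -/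
theorem comm_of_small (J : Submodule F A) (h1 : ∀ a, ∃ c : F, a - c • 1 ∈ J) (h2 : J * J ≤ J) (h3 : ∀ x ∈ J, IsNilpotent x)
    (l : A →ₗ[F] F) (hl : ∀ x y, l (x * y) = l (y * x)) (hn : ∀ x, (∀ y, l (x * y) = 0) → x = 0)
    (hz : finrank F (Subalgebra.center F A) ≤ 4) (x y : A) : x * y = y * x := by
  by_contra hc
  have kJ : ∀ {U : Submodule F A}, U * J ≤ U → ∀ u ∈ U, ∀ w, u * w ∈ U := fun h u hu w => by
    obtain ⟨c, hc⟩ := h1 w
    simpa [mul_sub] using add_mem (h (mul_mem_mul hu hc)) (smul_mem _ c hu)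
  obtain ⟨m, hm⟩ := exists_Nj_pow F A
  replace hm : J ^ (m + 1) = ⊥ := eq_bot_iff.2 (hm ▸ pow_le_pow_left' (fun x hx => mem_Nj fun y => h3 _ (kJ h2 x hx y)) _)
  have red : ∀ x y, ∃ a ∈ J, ∃ b ∈ J, x * y - y * x = a * b - b * a := fun x y => by
    obtain ⟨c, hc⟩ := h1 x
    obtain ⟨d, hd⟩ := h1 y
    exact ⟨_, hc, _, hd, by simp [mul_sub, sub_mul, smul_sub, smul_smul, mul_comm c d]; abel⟩
  obtain ⟨x', hx, y', hy, e0⟩ := red x y
  have hc' : x' * y' ≠ y' * x' := fun e => hc (sub_eq_zero.1 (by rw [e0, e, sub_self]))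
  let K : Submodule F A := span F {w | ∃ x y, w = x * y - y * x}
  have k1 : K ≤ J * J := span_le.2 (by
    rintro _ ⟨x, y, rfl⟩
    obtain ⟨a, ha, b, hb, e⟩ := red x y
    exact e ▸ sub_mem (mul_mem_mul ha hb) (mul_mem_mul hb ha))
  have k2 : K ≤ LinearMap.ker l := span_le.2 (by rintro _ ⟨x, y, rfl⟩; simp [hl x y])
  have k3 : ¬ J * J * J ≤ ⊥ := fun h => hc' (sub_eq_zero.1 (hn _ fun w => by
    obtain ⟨c, hc⟩ := h1 w
    have := h (mul_mem_mul (sub_mem (mul_mem_mul hx hy) (mul_mem_mul hy hx)) hc)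
    rw [mem_bot, mul_sub, sub_eq_zero] at this
    simp [this, hl x' y']))
  have k4 : ¬ J * J * J ≤ K := fun h => k3 fun u hu => hn u fun w =>
    k2 (h (kJ (by rw [mul_assoc (J * J)]; exact mul_le_mul_right h2 _) u hu w))
  have k5 : finrank F A ≤ finrank F K + 4 := by
    let Φ : A →ₗ[F] Dual F A := (LinearMap.mul F A).compr₂ l
    have hΦ : Function.Injective Φ := (injective_iff_map_eq_zero _).2 fun x h => hn x fun y => LinearMap.congr_fun h y
    have := Subspace.finrank_add_finrank_dualAnnihilator_eq K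
    have h' : K.dualAnnihilator ≤ (Subalgebra.center F A).toSubmodule.map Φ := fun f hf => by
      obtain ⟨z, rfl⟩ := (LinearMap.injective_iff_surjective_of_finrank_eq_finrank Subspace.dual_finrank_eq.symm).1 hΦ f
      refine ⟨z, (Subalgebra.mem_center_iff (R := F)).2 fun x => (sub_eq_zero.1 (hn _ fun y => ?_)).symm, rfl⟩
      have := (mem_dualAnnihilator _).1 hf _ (subset_span ⟨x, y, rfl⟩)
      have e : l (z * (x * y - y * x)) = 0 := this
      rwa [mul_sub, map_sub, ← mul_assoc, ← mul_assoc, hl (z * y), ← mul_assoc, ← map_sub, ← sub_mul] at e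
    have := (Submodule.finrank_mono h').trans (Submodule.finrank_map_le _ _)
    have := Subalgebra.finrank_toSubmodule (Subalgebra.center F A)
    omega
  have ne : ∀ a ∈ J, ∃ b ∈ J, b ∉ F ∙ a ⊔ J * J := fun a ha => by
    by_contra! h
    exact hc' (comm_of_gen h2 hm ha h hx hy)
  obtain ⟨a, ha, ha'⟩ := ne 0 (zero_mem _)
  obtain ⟨b, hb, hb'⟩ := ne a ha
  have lt : ∀ {a} {U : Submodule F A}, a ∉ U → finrank F U < finrank F ↥(F ∙ a ⊔ U) := fun h =>
    finrank_lt_finrank_of_lt (right_lt_sup.2 fun h' => h (h' (mem_span_singleton_self _)))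
  have l1 := lt (show a ∉ J * J by simpa using ha')
  have l2 := lt hb'
  have l3 : F ∙ b ⊔ (F ∙ a ⊔ J * J) ≤ J := sup_le ((span_singleton_le_iff_mem _ _).2 hb)
    (sup_le ((span_singleton_le_iff_mem _ _).2 ha) h2)
  have l4 : finrank F J < finrank F A := finrank_lt fun e => hc (by
    have : (1 : A) = 0 := let ⟨n, h⟩ := h3 1 (e ▸ mem_top); by simpa using h
    rw [← mul_one (x * y), ← mul_one (y * x), this]; simp)
  have l5 : K ⊔ J * J * J ≤ J * J := sup_le k1 (mul_le_mul_left h2 _)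
  have l6 : finrank F K < finrank F ↥(K ⊔ J * J * J) := finrank_lt_finrank_of_lt (left_lt_sup.2 k4)
  have l7 := Submodule.finrank_mono l3
  have l8 := Submodule.finrank_mono l5
  have m1 := (eq_of_le_of_finrank_le l3 (by omega)).ge
  have m2 := (eq_of_le_of_finrank_le l5 (by omega)).ge
  refine k3 (eq_bot_of_le_mul hm (two_gen h2 ha hb m1 (m2.trans (sup_le (span_le.2 ?_) le_sup_right)))).le
  rintro _ ⟨x, y, rfl⟩
  obtain ⟨x, hx, y, hy, e⟩ := red x y
  have dec : ∀ x ∈ J, ∃ s t : F, ∃ j ∈ J * J, x = s • a + t • b + j := fun x hx => by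
    obtain ⟨_, h1, _, h2, rfl⟩ := mem_sup.1 (m1 hx)
    obtain ⟨_, h3, j, hj, rfl⟩ := mem_sup.1 h2
    obtain ⟨t, rfl⟩ := mem_span_singleton.1 h1
    obtain ⟨s, rfl⟩ := mem_span_singleton.1 h3
    exact ⟨s, t, j, hj, by abel⟩
  obtain ⟨s, t, j, hj, ex⟩ := dec x hx
  obtain ⟨s', t', j', hj', ey⟩ := dec y hy
  have cm : ∀ u ∈ J * J, ∀ w ∈ J, u * w - w * u ∈ J * J * J := fun u hu w hw =>
    sub_mem (mul_mem_mul hu hw) (by rw [mul_assoc]; exact mul_mem_mul hw hu)
  rw [e]
  refine mem_sup.2 ⟨_, mem_span_singleton.2 ⟨s * t' - t * s', rfl⟩, _, sub_mem (cm j hj y hy)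
    (cm j' hj' (s • a + t • b) (add_mem (smul_mem _ _ ha) (smul_mem _ _ hb))), ?_⟩
  rw [ex, ey]
  simp only [mul_add, add_mul, smul_mul_assoc, mul_smul_comm]
  module

theorem Nj_mul {x : A} (h : x ∈ Nj F A) (y z : A) : y * x * z ∈ Nj F A :=
  Ideal.mul_mem_right z (Ideal.jacobson ⊥) (Ideal.mul_mem_left _ _ h)

theorem nil_of_Nj {x : A} (h : x ∈ Nj F A) : IsNilpotent x := by
  obtain ⟨m, hm⟩ := exists_Nj_pow F A
  exact ⟨m + 1, by simpa [hm] using Submodule.pow_mem_pow _ h (m + 1)⟩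

theorem corner_le {e i : A} (he : ∀ x, e * x = x * e) (hee : e * e = e) (hi : i * i = i) (hei : e * i = i) (h0 : i ≠ 0)
    (hloc : ∀ a, ∃ c : F, ∀ b, IsNilpotent ((i * a * i - c • i) * b)) {n : ℕ} {a b : Fin n → A}
    (hs : ∀ y, IsNilpotent ((e - ∑ s, a s * i * b s) * y)) (l : A →ₗ[F] F) (hl : ∀ x y, l (x * y) = l (y * x))
    (hn : ∀ x, (∀ y, l (x * y) = 0) → x = 0) (W : Submodule F A) (hW : ∀ z, (∀ x, x * z = z * x) → e * z = z → z ∈ W)
    (h4 : finrank F W ≤ 4) : finrank F (LinearMap.range (LinearMap.mulLeftRight F (i, i))) ≤ finrank F W := by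
  obtain ⟨a, hs⟩ : ∃ a : Fin n → A, ∑ s, a s * i * b s = e := by
    obtain ⟨u, hu⟩ := (by simpa only [mul_one] using hs 1 : IsNilpotent _).isUnit_one_sub
    refine ⟨fun s => (u⁻¹ : Aˣ) * a s, ?_⟩
    have : ∑ s, a s * i * b s = u * e := by
      rw [hu, sub_mul, sub_mul, hee, one_mul, sub_sub_cancel, ← he, Finset.mul_sum]
      exact Finset.sum_congr rfl fun s _ => by rw [← mul_assoc, ← mul_assoc, he, mul_assoc (a s) e, hei]
    simp only [mul_assoc, ← Finset.mul_sum] at this ⊢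
    rw [this, Units.inv_mul_cancel_left]
  have hii : ∀ x, i * (i * x) = i * x := fun x => by rw [← mul_assoc, hi]
  let C : Submodule F A :=
    { carrier := {w | i * w = w ∧ w * i = w ∧ ∀ x, i * x * w = w * x * i}
      add_mem' := fun h h' => ⟨by rw [mul_add, h.1, h'.1], by rw [add_mul, h.2.1, h'.2.1], fun x => by
        rw [mul_add, add_mul, add_mul, h.2.2, h'.2.2]⟩
      zero_mem' := by simp
      smul_mem' := fun c w h => ⟨by rw [mul_smul_comm, h.1], by rw [smul_mul_assoc, h.2.1], fun x => by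
        rw [mul_smul_comm, smul_mul_assoc, smul_mul_assoc, h.2.2]⟩ }
  have kC : finrank F C ≤ finrank F W := by
    let Ψ : A →ₗ[F] A := ∑ s, LinearMap.mulLeftRight F (a s, b s)
    have hΨ : ∀ w, Ψ w = ∑ s, a s * w * b s := fun w => by simp [Ψ]
    have ke : ∀ w ∈ C, ∀ x, e * (x * w) = x * w := fun w hw x => by
      rw [← mul_assoc, he, mul_assoc, ← hw.1, ← mul_assoc e, hei]
    refine LinearMap.finrank_le_finrank_of_injective (f := (Ψ.domRestrict C).codRestrict W fun w => hW _ (fun x => ?_) ?_)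
      ((injective_iff_map_eq_zero _).2 fun w h => Subtype.ext ?_)
    · simp only [LinearMap.domRestrict_apply, hΨ, Finset.mul_sum, Finset.sum_mul]
      calc _ = ∑ s, ∑ t, a t * (i * (b t * x * a s) * w) * b s := Finset.sum_congr rfl fun s _ => by
            rw [← mul_assoc, ← mul_assoc, ← ke _ w.2, ← hs]; simp only [Finset.sum_mul, mul_assoc]
        _ = _ := by
          rw [Finset.sum_comm]
          refine Finset.sum_congr rfl fun t _ => ?_
          simp only [w.2.2.2]
          simp only [mul_assoc, ← Finset.mul_sum]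
          simp only [← mul_assoc, hs]
          rw [← he, mul_assoc (a t * w), ← mul_assoc e, ke _ w.2]
    · simp only [LinearMap.domRestrict_apply, hΨ, Finset.mul_sum, ← mul_assoc]
      exact Finset.sum_congr rfl fun s _ => by rw [mul_assoc e, ke _ w.2]
    · have h1 : Ψ w = 0 := congrArg Subtype.val h
      have : i * Ψ w * i = w * e * i := by
        rw [hΨ, ← hs]; simp only [Finset.mul_sum, Finset.sum_mul, ← mul_assoc, w.2.2.2]
      rwa [h1, mul_assoc _ e, hei, w.2.2.1, mul_zero, zero_mul, eq_comm] at this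
  let J : Submodule F A := LinearMap.range (LinearMap.mulLeftRight F (i, i)) ⊓ Nj F A
  have kJ : ∀ x ∈ J, i * x = x ∧ x * i = x := by rintro _ ⟨⟨y, rfl⟩, -⟩; simp [mul_assoc, hi, hii]
  have kJ' : ∀ x ∈ J, ∀ y ∈ J, x * y ∈ J := fun x hx y hy => ⟨⟨x * y, by
    simp [mul_assoc, (kJ y hy).2, ← mul_assoc i, (kJ x hx).1]⟩, by simpa using Nj_mul hx.2 1 y⟩
  let A' : Subalgebra F A :=
    { carrier := {x | ∃ c : F, x - c • 1 ∈ J}
      mul_mem' := fun {x y} ⟨c, h⟩ ⟨d, h'⟩ => ⟨c * d, by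
        convert add_mem (kJ' _ h _ h') (add_mem (smul_mem _ d h) (smul_mem _ c h')) using 1
        simp [mul_sub, sub_mul, smul_sub, smul_smul, mul_comm c d]; abel⟩
      add_mem' := fun {x y} ⟨c, h⟩ ⟨d, h'⟩ => ⟨c + d, by convert add_mem h h' using 1; module⟩
      algebraMap_mem' := fun c => ⟨c, by simp [Algebra.algebraMap_eq_smul_one]⟩ }
  have k1 : ∀ x : A', i * x.1 = x.1 * i := fun ⟨x, c, h⟩ => by
    have := (kJ _ h).1.trans (kJ _ h).2.symm
    simpa [mul_sub, sub_mul] using this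
  have k2 : ∀ y, ∃ x : A', x.1 * i = i * y * i := fun y => by
    obtain ⟨c, hc⟩ := hloc y
    exact ⟨⟨i * y * i - c • i + c • 1, c, by
      rw [add_sub_cancel_right]; exact ⟨⟨y - c • 1, by simp [mul_sub, sub_mul, hi]⟩, mem_Nj hc⟩⟩, by
        simp [add_mul, sub_mul, mul_assoc, hi]⟩
  have k3 : ∀ x : A', x.1 * i = 0 → x = 0 := fun ⟨x, c, h⟩ h' => by
    have h1 := (kJ _ h).2
    rw [sub_mul, show x * i = 0 from h', smul_mul_assoc, one_mul, zero_sub] at h1
    by_cases hc : c = 0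
    · exact Subtype.ext (by rw [hc, zero_smul, zero_smul, neg_zero, sub_zero] at h1; exact h1.symm)
    · refine (h0 (idem_eq_zero_of_isNilpotent hi (nil_of_Nj (F := F) ?_))).elim
      have := smul_mem _ (-c⁻¹) (h1 ▸ h.2)
      rwa [smul_neg, neg_smul, neg_neg, inv_smul_smul₀ hc] at this
  have kc := comm_of_small (F := F) (A := A') (J.comap A'.val.toLinearMap) (fun x => x.2)
    (Submodule.mul_le.2 fun x hx y hy => kJ' _ hx _ hy)
    (fun x hx => let ⟨m, hm⟩ := nil_of_Nj (F := F) (show x.1 ∈ J from hx).2; ⟨m, Subtype.ext hm⟩)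
    (l ∘ₗ LinearMap.mulRight F i ∘ₗ A'.val.toLinearMap) (fun x y => by
      show l (x.1 * y.1 * i) = l (y.1 * x.1 * i)
      rw [mul_assoc, hl, mul_assoc, k1, mul_assoc]) (fun x h => k3 x (hn _ fun y => by
      obtain ⟨z, hz⟩ := k2 y
      have : l (x.1 * z.1 * i) = 0 := h z
      rwa [mul_assoc, hz, ← mul_assoc, hl, ← mul_assoc, ← mul_assoc, k1, mul_assoc x.1 i i, hi] at this))
    ((LinearMap.finrank_le_finrank_of_injective (f := ((LinearMap.mulRight F i ∘ₗ A'.val.toLinearMap) ∘ₗ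
      (Subalgebra.center F A').val.toLinearMap).codRestrict C fun w => ?_) ((injective_iff_map_eq_zero _).2
        fun w h => Subtype.ext (k3 _ (congrArg Subtype.val h)))).trans (kC.trans h4))
  · refine (Submodule.finrank_mono ?_).trans kC
    rintro _ ⟨y, rfl⟩
    refine ⟨by simp [mul_assoc, hii], by simp [mul_assoc, hi], fun x => ?_⟩
    obtain ⟨u, hu⟩ := k2 x
    obtain ⟨w, hw⟩ := k2 y
    have := congrArg (fun t : A' => t.1 * i) (kc u w)
    simp only [MulMemClass.coe_mul, mul_assoc, hu, hw] at this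
    simp only [← mul_assoc, hu, hw] at this
    simpa [mul_assoc] using this
  · refine ⟨?_, ?_, fun x => ?_⟩ <;> simp only [LinearMap.comp_apply, AlgHom.toLinearMap_apply, Subalgebra.coe_val,
      LinearMap.mulRight_apply]
    · rw [← mul_assoc, k1, mul_assoc, hi]
    · rw [mul_assoc, hi]
    · obtain ⟨u, hu⟩ := k2 x
      have := congrArg (fun t : A' => t.1 * i) (Subalgebra.mem_center_iff.1 w.2 u)
      simp only [MulMemClass.coe_mul, mul_assoc, hu] at this
      calc _ = u.1 * i * w.1.1 * i := by rw [hu, ← k1]; simp only [mul_assoc, k1, hi]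
        _ = _ := by rw [mul_assoc u.1, k1, mul_assoc, mul_assoc, hi, this]; simp only [mul_assoc]

end Alg

variable {G : Type*} [Group G] [Finite G] {M : Ideal AlgInt} {p : ℕ} [hp : Fact p.Prime] {B : Set (IrrCharacter G)}

theorem finrank_le_of_lift {U : Submodule (k M) (k M)[G]} {W : Submodule ℂ ℂ[G]}
    (h : ∀ u ∈ U, ∃ w ∈ W, w ∈ IntA G M ∧ redA M w = u) : finrank (k M) U ≤ finrank ℂ W := by
  let b := Module.finBasis (k M) U
  choose w h1 h2 h3 using fun j => h _ (b j).2
  have := indep_of_red (M := M) (f := fun j g => (w j).coeff g) h2 fun c hc =>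
    Fintype.linearIndependent_iff.1 b.linearIndependent c (Subtype.ext (ext_coeff fun g => by
      simpa [coeff_sum', ← h3, coeff_redA] using hc g))
  have h4 : LinearIndependent ℂ fun j => (⟨w j, h1 j⟩ : W) := Fintype.linearIndependent_iff.2 fun c hc =>
    Fintype.linearIndependent_iff.1 this c (funext fun g => by
      simpa [coeff_sum'] using congrArg (fun x : W => x.1.coeff g) hc)
  simpa using h4.fintype_card_le_finrank

theorem proj_vanish [Fintype G] (hM : IsPModular p M) {E : ℂ[G]} (hE : E ∈ IntA G M) (hEE : E * E = E) {h : G}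
    (hh : p ∣ orderOf h) : (∑ g, cj g E).coeff h = 0 := by
  obtain ⟨ζ, hζ, hζ1⟩ := exists_root p hM.1.one_lt
  obtain ⟨τ, hτ, hτ'⟩ := exists_twist (Equiv.mulLeft h⁻¹) hM.1.ne_zero hζ
  have hτO : ∀ a, τ a ∈ O M := fun a => mem_O_of_pow_eq_one hM.1.ne_zero (hτ a)
  have hτ1 : ∀ a, red M (τ a) = 1 := fun a => red_eq_one_of_pow_p_pow hM (n := 1) (by rw [pow_one, hτ a])
  let D : Module.End ℂ ℂ[G] :=
    { toFun := fun x => mk fun g => τ g * x.coeff g
      map_add' := fun x y => ext_coeff fun g => by simp [mul_add]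
      map_smul' := fun c x => ext_coeff fun g => by simp [mul_left_comm] }
  have hD : ∀ x ∈ IntA G M, D x ∈ IntA G M ∧ redA M (D x) = redA M x := fun x hx =>
    ⟨mk_mem_IntA fun g => mul_mem (hτO g) (hx g), ext_coeff fun g => by
      simp only [D, coeff_redA, LinearMap.coe_mk, AddHom.coe_mk, coeff_mk, red_mul (hτO g) (hx g), hτ1, one_mul]⟩
  have k1 : ∀ x, D (single h⁻¹ 1 * x) = ζ • (single h⁻¹ 1 * D x) := fun x => ext_coeff fun g => by
    have := hτ' (h * g) fun n hn => (Int.natCast_dvd_natCast.2 hh).trans (by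
      rw [Equiv.zpow_mulLeft] at hn
      rw [← orderOf_inv, orderOf_dvd_iff_zpow_eq_one]; simpa using hn)
    simp only [Equiv.coe_mulLeft, inv_mul_cancel_left] at this
    simp [D, coeff_single_mul, this, mul_assoc]
  let R := LinearMap.mulRight ℂ E
  let S := LinearMap.mulLeftRight ℂ (single h⁻¹ (1 : ℂ), E)
  let T : Module.End ℂ ℂ[G] := R * D * R + (1 - R)
  have k2 : T * S = ζ • (S * T) := LinearMap.ext fun x => by
    simp [T, S, R, mul_assoc, hEE, k1, mul_add, mul_sub, add_mul, sub_mul]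
  obtain ⟨u, hu⟩ : IsUnit T := (LinearMap.isUnit_iff_ker_eq_bot _).2 (LinearMap.ker_eq_bot'.2 fun x hx => by
    by_contra h0
    obtain ⟨c, -, h1, h2⟩ := exists_scale (M := M) h0
    have h3 := hD _ (mul_mem h1 hE)
    have : D (c • x * E) * E + (c • x - c • x * E) = 0 := by
      simpa [T, R, smul_sub] using congrArg (c • ·) hx
    have := congrArg (redA M) this
    rw [redA_add (mul_mem h3.1 hE) (sub_mem h1 (mul_mem h1 hE)), redA_mul h3.1 hE, h3.2, redA_sub h1 (mul_mem h1 hE),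
      ← redA_mul (mul_mem h1 hE) hE, mul_assoc, hEE] at this
    exact h2 (by simpa using this))
  have k3 : LinearMap.trace ℂ _ S = ζ * LinearMap.trace ℂ _ S := by
    conv_lhs => rw [← Units.inv_mul_cancel_left u S, LinearMap.trace_mul_comm, hu, k2, ← hu]
    simp [mul_assoc]
  have k4 : LinearMap.trace ℂ _ S = 0 := by
    by_contra h0; exact hζ1 (mul_right_cancel₀ h0 (by rw [← k3, one_mul]))
  rw [trace_eq_sum_coeff] at k4
  rw [coeff_sum', ← k4]
  simp [S, mul_assoc, coeff_single_mul]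

theorem ev_idem_congr (hM : IsPModular p M) {E : ℂ[G]} (hE : E ∈ IntA G M) (hEE : E * E = E) {θ : G → ℂ}
    (hθ : IsClassFunction G θ) : ev (reg p θ) E = ev θ E := by
  cases nonempty_fintype G
  have k : ∀ θ, IsClassFunction G θ → ev θ (∑ g, cj g E) = Nat.card G * ev θ E := fun θ h => by
    simp only [map_sum, cj_eq, ev_char_comm h (_ * E), ← mul_assoc, single_inv_mul, one_mul]; simp
  refine mul_left_cancel₀ (card_ne_zero' G) ?_
  rw [← k _ hθ, ← k _ (class_reg hθ), ev_apply, ev_apply]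
  refine Finset.sum_congr rfl fun g _ => ?_
  by_cases h : p ∣ orderOf g
  · rw [proj_vanish hM hE hEE h, zero_mul, zero_mul]
  · rw [reg_of_not_dvd _ h]

theorem trace_corner (E : ℂ[G]) : LinearMap.trace ℂ _ (LinearMap.mulLeftRight ℂ (E, E)) =
    ∑ χ : IrrCharacter G, ev χ.1 E ^ 2 := by
  cases nonempty_fintype G
  have hz : ∑ g, cj g E ∈ Z ℂ G := mem_Z_iff_cj.2 fun h => by
    rw [map_sum]; exact Fintype.sum_equiv (Equiv.mulLeft h) _ _ fun g => by simp [cj_mul]
  refine mul_left_cancel₀ (card_ne_zero' G) ?_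
  have : LinearMap.trace ℂ _ (LinearMap.mulLeftRight ℂ (E, E)) = ((∑ g, cj g E) * E).coeff 1 := by
    rw [trace_eq_sum_coeff, Finset.sum_mul, coeff_sum']
    refine Fintype.sum_equiv (Equiv.inv G) _ _ fun g => ?_
    simp [cj_eq, mul_assoc, coeff_single_mul]
  rw [this, ← ev_regChar, regChar_eq_sum, ev_sum_fun, Finset.mul_sum]
  refine Finset.sum_congr rfl fun χ _ => ?_
  rw [ev_smul_fun, ev_Z_mul χ.2 hz, ← mul_assoc, mul_comm (χ.1 1), ← ev_eq_om_mul (irr_one_ne_zero χ.2), sq, ← mul_assoc]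
  simp only [map_sum, cj_eq, ev_char_comm (irr_class χ.2) (_ * E), ← mul_assoc, single_inv_mul, one_mul]; simp

theorem pow_le_corner (hM : IsPModular p M) (hB : IsPBlock M B) (h : blockRank p B = 1) {i : (k M)[G]} (hi : i * i = i)
    (hei : eB M B * i = i) (h0 : i ≠ 0) :
    p ^ blockDefect p B ≤ finrank (k M) (LinearMap.range (LinearMap.mulLeftRight (k M) (i, i))) := by
  cases nonempty_fintype G
  obtain ⟨E, h1, h2, h3, h4, h5, -⟩ := exists_lift (H := ⊥) (fI_mem_IntA hM hB) (Z_le_Fix _ (fI_mem_Z B)) (fI_mul_self B)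
    (i := i) (by simp [mem_Fix]) hi (by rw [redA_fI, hei, ← Z_comm (eB_mem_Z B), hei])
  obtain ⟨φ, d, hφ, -, e1, e2, -⟩ := rank_one hM hB h
  obtain ⟨m, hm⟩ : ∃ m : ℤ, ev φ E = m := by
    obtain ⟨a, b, ha, hb, rfl⟩ := hφ
    have k := fun {a} (ha : IsCharacter G a) => char_one_eq (char_idem ha h2 h3)
    simp only [OneMemClass.coe_one, ← one_def, mul_one] at k
    have k' : ∀ {a}, IsCharacter G a → ∃ n : ℕ, ev a E = n := fun ha => ⟨_, k ha⟩
    obtain ⟨n, hn⟩ := k' ha
    obtain ⟨n', hn'⟩ := k' hb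
    exact ⟨n - n', by rw [sub_eq_add_neg, ev_add_fun, ← neg_one_smul ℂ b, ev_smul_fun, hn, hn']; push_cast; ring⟩
  have e3 : ∀ χ : IrrCharacter G, ev χ.1 E = if χ ∈ fs B then (d χ * m : ℂ) else 0 := fun χ => by
    split_ifs with e
    · rw [← ev_idem_congr hM h1 h3 (irr_class χ.2), e1 χ (mem_fs.1 e), ev_smul_fun, ev_idem_congr hM h1 h3 (gen_class hφ), hm]
    · rw [← h5, ev_fI_mul_of_notMem (mt mem_fs.2 e)]
  let T := LinearMap.mulLeftRight ℂ (E, E)
  have hT : IsIdempotentElem T := LinearMap.ext fun x => by simp [T, mul_assoc, h3, ← mul_assoc E E]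
  have e4 : finrank ℂ (LinearMap.range T) = p ^ blockDefect p B * m.natAbs ^ 2 := by
    have := (LinearMap.IsIdempotentElem.isProj_range _ hT).trace
    rw [trace_corner] at this
    refine Nat.cast_injective (R := ℂ) ?_
    rw [← this, ← e2, Nat.cast_mul, Nat.cast_pow m.natAbs, Nat.cast_natAbs, ← Int.cast_pow, sq_abs]; push_cast
    simp [e3, mul_pow, Finset.sum_mul]
  have e5 : m ≠ 0 := fun e => h0 (by rw [← h4, idem_eq_zero_of_ev h3 fun χ => by simp [e3, e]]; simp)
  have e6 := finrank_le_of_lift (M := M) (U := LinearMap.ker (LinearMap.mulLeftRight (k M) (i, i))) (W := LinearMap.ker T)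
    fun u hu => ⟨secA M u - T (secA M u), by simp [← Module.End.mul_apply, hT.eq],
      sub_mem (secA_mem_IntA u) (mul_mem (mul_mem h1 (secA_mem_IntA u)) h1), by
        rw [LinearMap.mulLeftRight_apply, redA_sub (secA_mem_IntA u) (mul_mem (mul_mem h1 (secA_mem_IntA u)) h1)]
        simpa [redA_mul (mul_mem h1 (secA_mem_IntA u)) h1, redA_mul h1 (secA_mem_IntA u), h4] using hu⟩
  have e7 := T.finrank_range_add_finrank_ker
  have e8 := (LinearMap.mulLeftRight (k M) (i, i)).finrank_range_add_finrank_ker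
  rw [finrank_eq_card_basis (MonoidAlgebra.basis G _)] at e7 e8
  have : p ^ blockDefect p B ≤ _ := Nat.le_mul_of_pos_right _ (pow_pos (Int.natAbs_pos.2 e5) 2)
  omega

/-- a block of rank one with at most four characters has `p ^ d` characters -/
theorem card_eq_of_small (hM : IsPModular p M) (hB : IsPBlock M B) (h : blockRank p B = 1) (h4 : Nat.card B ≤ 4) :
    Nat.card B = p ^ blockDefect p B := by
  classical
  cases nonempty_fintype G
  refine le_antisymm ?_ ?_
  · obtain ⟨φ, d, -, -, e1, e2, -⟩ := rank_one hM hB h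
    rw [← e2, ← card_fs, Finset.card_eq_sum_ones]
    refine Finset.sum_le_sum fun χ hχ => pow_pos (Nat.pos_of_ne_zero fun e => irr_one_ne_zero χ.2 ?_) 2
    simpa [e, reg_of_not_dvd _ (not_dvd_orderOf_one hp.out)] using congrFun (e1 χ (mem_fs.1 hχ)) 1
  obtain ⟨i, h1, h2, h3, h5, n, a, b, h6⟩ := exists_prim hM hB h
  let W := (Z (k M) G).toSubmodule ⊓ LinearMap.ker (LinearMap.mulLeft (k M) (1 - eB M B))
  have hW : finrank (k M) W ≤ Nat.card B := by
    let W' := (Z ℂ G).toSubmodule ⊓ LinearMap.ker (LinearMap.mulLeft ℂ (1 - fI B))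
    refine (finrank_le_of_lift (U := W) (W := W') fun u hu => ⟨fI B * secA M u, ⟨(Z ℂ G).mul_mem (fI_mem_Z B) (secA_mem_Z hu.1), by
      simp [← mul_assoc, sub_mul, fI_mul_self]⟩, mul_mem (fI_mem_IntA hM hB) (secA_mem_IntA u), by
        rw [redA_mul (fI_mem_IntA hM hB) (secA_mem_IntA u), redA_fI, redA_secA, eq_comm]
        simpa [sub_mul, sub_eq_zero] using hu.2⟩).trans ?_
    have := Fintype.ofFinite B
    refine (LinearMap.finrank_le_finrank_of_injective (f := (LinearMap.pi fun χ : B => om χ.1.1).domRestrict W')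
      ((injective_iff_map_eq_zero _).2 fun w hw => Subtype.ext (Z_ext w.2.1 (zero_mem _) fun χ => ?_))).trans (by simp)
    by_cases e : χ ∈ B
    · simpa using congrFun hw ⟨χ, e⟩
    · have : w.1 = fI B * w := by simpa [sub_mul, sub_eq_zero] using w.2.2
      rw [this, om_mul χ.2 (fI_mem_Z B), om_fI_of_notMem e]; simp
  refine (pow_le_corner hM hB h h1 h2 h3).trans ((corner_le (Z_comm (eB_mem_Z B)) (eB_mul_self hM hB) h1 h2 h3 h5 h6
    (ev fun g => if g = 1 then 1 else 0) (ev_mul_comm fun g h => by simp only [mul_eq_one_comm (a := g)])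
    (fun x hx => ext_coeff fun g => ?_) W (fun z h h' => ⟨(Subalgebra.mem_center_iff (R := k M)).2 h, by simp [sub_mul, h']⟩)
    (hW.trans h4)).trans hW)
  simpa [ev_mul_single, mul_inv_eq_one] using hx (single g⁻¹ 1)

end H4
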