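import Cfsg.Agent.H4.St2
import Cfsg.Agent.H3.Dade
import Cfsg.Agent.H3.Perm

/-! The Steinberg character of a Chevalley system, III: it is the only character of defect zero. -/

set_option autoImplicit false
set_option linter.unusedSectionVars false

namespace H4.St

open Cfsg H6 H6.StSys H6.ChevSys H3
open scoped ComplexConjugate

section ops

variable {G A V : Type*} [Group G] [Group A] [Fintype A] [AddCommGroup V] [Module ℂ V]
  (ρ : Representation ℂ G V) (j : A →* G) (μ : A →* ℂˣ)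

/-- the projection onto the `μ`-isotypic part -/
noncomputable def av : Module.End ℂ V :=
  (Nat.card A : ℂ)⁻¹ • ∑ a, (((μ a)⁻¹ : ℂˣ) : ℂ) • ρ (j a)

theorem av_left (a : A) : ρ (j a) * av ρ j μ = (μ a : ℂ) • av ρ j μ := by
  rw [av, mul_smul_comm, smul_comm (μ a : ℂ)]
  congr 1
  rw [Finset.mul_sum, Finset.smul_sum,
    ← Equiv.sum_comp (Equiv.mulLeft a) fun b => (μ a : ℂ) • ((((μ b)⁻¹ : ℂˣ) : ℂ) • ρ (j b))]
  refine Finset.sum_congr rfl fun b _ => ?_
  simp [smul_smul, mul_comm]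

theorem av_idem : av ρ j μ * av ρ j μ = av ρ j μ := by
  conv_lhs => enter [1]; rw [av]
  rw [smul_mul_assoc, Finset.sum_mul]
  simp only [smul_mul_assoc, av_left, smul_smul, Units.inv_mul, one_smul, Finset.sum_const,
    Finset.card_univ, ← Nat.cast_smul_eq_nsmul ℂ, ← Nat.card_eq_fintype_card]
  rw [inv_mul_cancel₀ (Nat.cast_ne_zero.2 Nat.card_pos.ne'), one_smul]

theorem av_comm {g : G} (σ : A ≃ A) (h : ∀ a, g * j a * g⁻¹ = j (σ a) ∧ μ (σ a) = μ a) :
    ρ g * av ρ j μ = av ρ j μ * ρ g := by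
  rw [av, mul_smul_comm, smul_mul_assoc, Finset.mul_sum, Finset.sum_mul,
    ← Equiv.sum_comp σ fun b => ((((μ b)⁻¹ : ℂˣ) : ℂ) • ρ (j b)) * ρ g]
  congr 1
  refine Finset.sum_congr rfl fun a _ => ?_
  rw [(h a).2, ← (h a).1, mul_smul_comm, smul_mul_assoc, ← map_mul, ← map_mul]
  simp

theorem av_comm' {X : Module.End ℂ V} (h : ∀ a, ρ (j a) * X = X * ρ (j a)) :
    av ρ j μ * X = X * av ρ j μ := by
  simp only [av, mul_smul_comm, smul_mul_assoc, Finset.mul_sum, Finset.sum_mul, h]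

variable [FiniteDimensional ℂ V]

theorem trace_av (g : G) (X : Module.End ℂ V) : LinearMap.trace ℂ V (ρ g * av ρ j μ * X) =
    (Nat.card A : ℂ)⁻¹ * ∑ a, (((μ a)⁻¹ : ℂˣ) : ℂ) * LinearMap.trace ℂ V (ρ (g * j a) * X) := by
  simp [av, Finset.mul_sum, Finset.sum_mul]

theorem no_three {T e : Module.End ℂ V} (he : e * e = e) (hc : T * e = e * T) {ε : ℂ} (hε : ε ≠ 0)
    (hT : T * T * e = ε • e) (h3 : LinearMap.trace ℂ V e = 3)
    (h0 : LinearMap.trace ℂ V (T * e) = 0) : False := by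
  obtain ⟨s, hs⟩ := IsAlgClosed.exists_pow_nat_eq ε two_pos
  have hs0 : s ≠ 0 := by rintro rfl; simp at hs; exact hε hs.symm
  have h1 : e * (T * e) = T * e := by rw [← mul_assoc, ← hc, mul_assoc, he]
  have h2 : T * e * e = T * e := by rw [mul_assoc, he]
  have h4 : T * e * (T * e) = ε • e := by rw [mul_assoc, h1, ← mul_assoc, hT]
  have hf : IsIdempotentElem ((2 : ℂ)⁻¹ • (e + s⁻¹ • (T * e))) := by
    rw [IsIdempotentElem]
    simp only [smul_mul_assoc, mul_smul_comm, mul_add, add_mul, he, h1, h2, h4, smul_add, smul_smul]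
    rw [← hs]
    match_scalars <;> field_simp <;> ring
  have := (LinearMap.IsIdempotentElem.isProj_range _ hf).trace
  simp only [map_smul, map_add, h3, h0, smul_eq_mul, mul_zero, add_zero] at this
  have h5 : ((3 : ℕ) : ℂ) = (2 * Module.finrank ℂ (LinearMap.range
      ((2 : ℂ)⁻¹ • (e + s⁻¹ • (T * e)))) : ℕ) := by
    push_cast; rw [← this]; ring
  have := Nat.cast_injective h5
  omega

end ops

section generic

variable {G : Type*} [Group G]

theorem bij_sup {N K L : Subgroup G} (hL : ∀ g, g ∈ L ↔ ∃ n ∈ N, ∃ k ∈ K, g = n * k)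
    (hd : N ⊓ K = ⊥) : Function.Bijective fun q : N × K =>
      (⟨q.1 * q.2, (hL _).2 ⟨_, q.1.2, _, q.2.2, rfl⟩⟩ : L) := by
  refine ⟨?_, ?_⟩
  · rintro ⟨⟨a, ha⟩, ⟨b, hb⟩⟩ ⟨⟨c, hc⟩, ⟨d, hd'⟩⟩ e
    simp only [Subtype.mk.injEq] at e
    have h1 : c⁻¹ * a = d * b⁻¹ := by rw [inv_mul_eq_iff_eq_mul, ← mul_assoc, ← e]; simp
    have h2 : c⁻¹ * a ∈ N ⊓ K := ⟨N.mul_mem (N.inv_mem hc) ha, h1 ▸ K.mul_mem hd' (K.inv_mem hb)⟩
    obtain rfl : c = a := inv_mul_eq_one.1 (by simpa [hd] using h2)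
    obtain rfl : b = d := mul_left_cancel e
    rfl
  · rintro ⟨g, hg⟩
    obtain ⟨u, hu, y, hy, rfl⟩ := (hL g).1 hg
    exact ⟨(⟨u, hu⟩, ⟨y, hy⟩), rfl⟩

theorem sum_sup {N K L : Subgroup G} [Fintype N] [Fintype K] [Fintype L]
    (hL : ∀ g, g ∈ L ↔ ∃ n ∈ N, ∃ k ∈ K, g = n * k) (hd : N ⊓ K = ⊥) (f : L → ℂ) :
    ∑ g : L, f g = ∑ n : N, ∑ k : K, f ⟨n * k, (hL _).2 ⟨_, n.2, _, k.2, rfl⟩⟩ := by
  rw [← (bij_sup hL hd).sum_comp, Fintype.sum_prod_type]

theorem exists_proj' [Finite G] {N K L : Subgroup G}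
    (hL : ∀ g, g ∈ L ↔ ∃ n ∈ N, ∃ k ∈ K, g = n * k)
    (hN : N ≤ Subgroup.normalizer (K : Set G)) (hd : N ⊓ K = ⊥) :
    ∃ f : L →* N, ∀ (n : N) (k : G) (_ : k ∈ K) (h : _), f ⟨n * k, h⟩ = n := by
  obtain ⟨f, hf⟩ := exists_proj hN hd
  have : L ≤ N ⊔ K := fun g hg => by
    obtain ⟨n, hn, k, hk, rfl⟩ := (hL g).1 hg
    exact Subgroup.mul_mem_sup hn hk
  exact ⟨f.comp (Subgroup.inclusion this), fun n k hk h => hf n k hk _⟩

theorem pow_mem_coset {Q : Subgroup G} {g u : G} (hg : g ∈ Subgroup.normalizer (Q : Set G))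
    (hu : u ∈ Q) (k : ℕ) : (g ^ k)⁻¹ * (g * u) ^ k ∈ Q := by
  induction k with
  | zero => simp
  | succ k ih =>
    have := Q.mul_mem (conj_mem_of_normalizer hg ih) hu
    simpa [pow_succ, mul_assoc] using this

/-- conjugation as a permutation of a normalized subgroup -/
def cjE {Q : Subgroup G} {g : G} (hg : g ∈ Subgroup.normalizer (Q : Set G)) : Q ≃ Q :=
  (MulAut.conj g).toEquiv.subtypeEquiv fun u => (norm_iff hg u).symm

theorem inner_prod_le [Fintype G] {a b : G → ℂ} (ha : IsCharacter G a) (hb : IsCharacter G b)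
    (h : classInner a b = 1) : (∀ χ, IsIrrCharacter G χ → classInner a χ ≠ 0 → classInner b χ ≠ 0 →
      classInner a χ = 1) ∧ ∀ χ ψ, IsIrrCharacter G χ → IsIrrCharacter G ψ → classInner a χ ≠ 0 →
        classInner b χ ≠ 0 → classInner a ψ ≠ 0 → classInner b ψ ≠ 0 → χ = ψ := by
  classical
  obtain ⟨c, hc, -⟩ := char_eq_sum_nat ha
  obtain ⟨d, hd, -⟩ := char_eq_sum_nat hb
  rw [parseval (char_class ha)] at h
  simp only [hc, hd, map_natCast] at h
  have h1 : ∑ χ, c χ * d χ = 1 := by exact_mod_cast h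
  refine ⟨fun χ hχ k1 k2 => ?_, fun χ ψ hχ hψ k1 k2 k3 k4 => ?_⟩
  · have := Finset.single_le_sum (f := fun χ => c χ * d χ) (fun _ _ => Nat.zero_le _)
      (Finset.mem_univ ⟨χ, hχ⟩)
    rw [hc ⟨χ, hχ⟩, Nat.cast_ne_zero] at k1
    rw [hd ⟨χ, hχ⟩, Nat.cast_ne_zero] at k2
    rw [hc ⟨χ, hχ⟩, Nat.cast_eq_one]
    have := Nat.le_mul_of_pos_right (c ⟨χ, hχ⟩) (Nat.pos_of_ne_zero k2)
    omega
  · by_contra hne
    have := Finset.sum_le_sum_of_subset (f := fun χ => c χ * d χ)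
      (Finset.subset_univ {⟨χ, hχ⟩, ⟨ψ, hψ⟩})
    rw [Finset.sum_pair (fun e => hne (congrArg Subtype.val e))] at this
    rw [hc ⟨χ, hχ⟩, Nat.cast_ne_zero] at k1
    rw [hd ⟨χ, hχ⟩, Nat.cast_ne_zero] at k2
    rw [hc ⟨ψ, hψ⟩, Nat.cast_ne_zero] at k3
    rw [hd ⟨ψ, hψ⟩, Nat.cast_ne_zero] at k4
    have := Nat.pos_of_ne_zero (mul_ne_zero k1 k2)
    have := Nat.pos_of_ne_zero (mul_ne_zero k3 k4)
    omega

end generic

variable {Φ ι : Type} [Fintype ι] [DecidableEq ι] {R : RS Φ ι} {F : Type*} [Field F]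
  {G : Type*} [Group G] [Fintype Φ] {S : ChevSys R F G}

theorem x_mem_X (r : Φ) (t : F) : S.x r t ∈ S.U {r} := S.x_mem_U (Set.mem_singleton r) t

section sl2

variable (h3 : S.R3) {r : Φ}
include h3

theorem h_mul_n {a b : F} (ha : a ≠ 0) (hb : b ≠ 0) : S.h r a * S.n r b = S.n r (a * b) := by
  rw [S.n_eq r b, S.n_eq r (a * b), ← mul_assoc, h3 r a b ha hb]

theorem n_mul_n {a b : F} (ha : a ≠ 0) (hb : b ≠ 0) : S.n r a * S.n r b = S.h r (-a / b) := by
  have := h_mul_n h3 (r := r) (div_ne_zero (neg_ne_zero.2 ha) hb) (neg_ne_zero.2 hb)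
  rw [S.n_neg, show -a / b * -b = a by field_simp] at this
  rw [← this]; simp

theorem n_mul_h {a b : F} (ha : a ≠ 0) (hb : b ≠ 0) : S.n r a * S.h r b = S.n r (a / b) := by
  rw [StSys.h, ← mul_assoc, n_mul_n h3 ha hb, h_mul_n h3 (div_ne_zero (neg_ne_zero.2 ha) hb)
    (neg_ne_zero.2 one_ne_zero)]
  congr 1; ring

omit h3 in
theorem h_x {a : F} (ha : a ≠ 0) (u : F) : S.h r a * S.x r u = S.x r (a ^ 2 * u) * S.h r a := by
  have := S.nconj.h_conj r ha r u
  rw [R.pair_self, zpow_ofNat] at this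
  rw [← this]; simp

theorem n_x_n (i : ι) {s u t : F} (hs : s ≠ 0) (hu : u ≠ 0) (ht : t ≠ 0) :
    S.n (R.simple i) s * S.x (R.simple i) u * S.n (R.simple i) t = S.x (R.simple i) (-s ^ 2 / u) *
      S.n (R.simple i) (-(s * t) / u) * S.x (R.simple i) (-t ^ 2 / u) := by
  have h1 := S.nconj i s hs (R.simple i) u
  rw [R.refl_simple_self, R.eta_simple, R.A_simple_self, S.x_neg_eq _ (by simp [hs, hu]),
    mul_inv_eq_iff_eq_mul] at h1
  have h2 := h_x (S := S) (r := R.simple i) (div_ne_zero (neg_ne_zero.2 hs) ht) (-t ^ 2 / u)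
  have e1 : (((-1 : ℤ) : F) * s ^ (-2 : ℤ) * u)⁻¹ = -s ^ 2 / u := by
    rw [zpow_neg, zpow_ofNat]; push_cast; field_simp
  have e2 : (-s / t) ^ 2 * (-t ^ 2 / u) = -s ^ 2 / u := by field_simp
  rw [e1] at h1
  rw [e2] at h2
  rw [h1, mul_assoc _ (S.n _ s), n_mul_n h3 hs ht, mul_assoc _ (S.x _ _), ← h2, ← mul_assoc,
    mul_assoc _ (S.n _ _), n_mul_h h3 (by simp [hs, hu]) (div_ne_zero (neg_ne_zero.2 hs) ht)]
  congr 3; field_simp

theorem n_conj [Finite F] (i : ι) (h2 : ringChar F ≠ 2) {t : F} (ht : t ≠ 0) :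
    ∃ g ∈ S.U {R.simple i} ⊔ S.U {R.neg (R.simple i)},
      S.n (R.simple i) t = g⁻¹ * S.n (R.simple i) 1 * g := by
  have := Fintype.ofFinite F
  have hm : ∀ s, S.n (R.simple i) s ∈ S.U {R.simple i} ⊔ S.U {R.neg (R.simple i)} := fun s => by
    rw [← S.U_union]; exact S.n_mem_U (by simp) (by simp) s
  have hsq : ∀ s : F, s ≠ 0 → ∃ g ∈ S.U {R.simple i} ⊔ S.U {R.neg (R.simple i)},
      S.n (R.simple i) (s ^ 2) = g⁻¹ * S.n (R.simple i) 1 * g := fun s hs => by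
    refine ⟨S.h (R.simple i) s⁻¹, Subgroup.mul_mem _ (hm _) (hm _), ?_⟩
    rw [mul_assoc, eq_inv_mul_iff_mul_eq, h_mul_n h3 (inv_ne_zero hs) (pow_ne_zero 2 hs),
      n_mul_h h3 one_ne_zero (inv_ne_zero hs)]
    congr 1; field_simp
  obtain ⟨b, d, e⟩ := FiniteField.exists_root_sum_quadratic (f := Polynomial.X ^ 2)
    (g := Polynomial.X ^ 2 - Polynomial.C t) (Polynomial.degree_X_pow 2)
    (Polynomial.degree_X_pow_sub_C two_pos t) (FiniteField.odd_card_of_char_ne_two h2)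
  simp only [Polynomial.eval_pow, Polynomial.eval_X, Polynomial.eval_sub, Polynomial.eval_C] at e
  by_cases hb : b = 0
  · obtain rfl : t = d ^ 2 := by rw [hb] at e; linear_combination -e
    exact hsq d fun h => ht (by simp [h])
  by_cases hd : d = 0
  · obtain rfl : t = b ^ 2 := by rw [hd] at e; linear_combination -e
    exact hsq b hb
  have hx : ∀ s, S.x (R.simple i) s ∈ S.U {R.simple i} ⊔ S.U {R.neg (R.simple i)} := fun s =>
    Subgroup.mem_sup_left (x_mem_X _ s)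
  refine ⟨S.x (R.simple i) (-d / b) * S.n (R.simple i) (t / b) * S.x (R.simple i) (-(d * t) / b),
    Subgroup.mul_mem _ (Subgroup.mul_mem _ (hx _) (hm _)) (hx _), ?_⟩
  rw [mul_assoc, eq_inv_mul_iff_mul_eq, ← mul_assoc, ← mul_assoc,
    n_x_n h3 i one_ne_zero (by simp [hb, hd]) (div_ne_zero ht hb), mul_assoc (S.x _ _),
    mul_assoc (S.x _ _), n_x_n h3 i (div_ne_zero ht hb) (by simp [hb, hd, ht]) ht, ← mul_assoc,
    ← mul_assoc, ← S.add, mul_assoc _ (S.x _ _) (S.x _ _), ← S.add]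
  obtain rfl : t = b ^ 2 + d ^ 2 := by linear_combination -e
  congr 2
  · congr 1; field_simp; ring
  · congr 1; field_simp
  · field_simp; ring

end sl2

variable (S) in
/-- the unipotent radical of a minimal parabolic subgroup -/
abbrev Qi (i : ι) : Subgroup G := S.U {s | R.Pos s ∧ s ≠ R.simple i}

theorem B_le_norm_Qi (i : ι) : S.B ≤ Subgroup.normalizer (Qi S i : Set G) := fun b hb => by
  obtain ⟨u, hu, y, hy, t, rfl⟩ := S.exists_B_decomp i hb
  exact Subgroup.mul_mem _ (Subgroup.mul_mem _ (Subgroup.le_normalizer hu)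
    (S.nconj.H_le_normalizer _ hy)) (S.simple_le_normalizer i
      (Subgroup.mem_sup_left (x_mem_X _ t)))

theorem eq_zero_of_Qi {i : ι} {t : F} (h : S.x (R.simple i) t ∈ Qi S i) : t = 0 := by
  refine S.inj (fun _ => 1) _ t (R.fv_one_pos (R.pos_simple i)) (S.U_mono (fun r hr => And.intro hr.2 ?_) h)
  have := R.fv_one_pos hr.1
  rw [R.fv_simple]; omega

theorem X_inf_Qi (i : ι) : S.U {R.simple i} ⊓ Qi S i = ⊥ := by
  rw [eq_bot_iff]
  rintro g ⟨h1, h2⟩
  obtain ⟨t, rfl⟩ := S.mem_U_singleton.1 h1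
  simp [eq_zero_of_Qi h2]

theorem mem_Up_iff (i : ι) (g : G) :
    g ∈ S.Up ↔ ∃ n ∈ S.U {R.simple i}, ∃ k ∈ Qi S i, g = n * k := by
  constructor
  · intro h
    obtain ⟨a, ha, b, hb, e⟩ := S.exists_mul_of_mem_U R.closed_pos
      (fun _ h => R.fv_one_pos h) {R.simple i} h
    exact ⟨a, S.U_mono Set.inter_subset_right ha, b, hb, e⟩
  · rintro ⟨a, ha, b, hb, rfl⟩
    exact S.Up.mul_mem (S.U_mono (by rintro _ rfl; exact R.pos_simple i) ha)
      (S.U_mono (fun _ h => h.1) hb)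

theorem mem_B_iff (g : G) : g ∈ S.B ↔ ∃ n ∈ S.H, ∃ k ∈ S.Up, g = n * k := by
  rw [S.nconj.mem_B]
  constructor
  · rintro ⟨u, hu, y, hy, rfl⟩
    exact ⟨y, hy, _, conj_mem_of_normalizer (S.nconj.B_le_normalizer (S.H_le_B hy)) hu,
      by simp [mul_assoc]⟩
  · rintro ⟨y, hy, u, hu, rfl⟩
    exact ⟨_, (norm_iff (S.nconj.B_le_normalizer (S.H_le_B hy)) u).2 hu, y, hy, by simp⟩

variable [Fintype G]

theorem exists_psi : ∃ ψ : S.Up →* ℂˣ, ∀ i, ∃ t,
    ψ ⟨S.x (R.simple i) t, S.x_mem_U (R.pos_simple i) t⟩ ≠ 1 := by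
  have h : ∀ i, ∃ ψ : S.Up →* ℂˣ, ψ ⟨S.x (R.simple i) 1, S.x_mem_U (R.pos_simple i) 1⟩ ≠ 1 ∧
      ∀ u : S.Up, u.1 ∈ Qi S i → ψ u = 1 := fun i => by
    obtain ⟨f, hf⟩ := exists_proj' (mem_Up_iff (S := S) i)
      (le_sup_left.trans (S.simple_le_normalizer i)) (X_inf_Qi i)
    obtain ⟨μ, hμ⟩ := exists_hom_ne_one (G := S.U {R.simple i})
      (g := ⟨S.x (R.simple i) 1, x_mem_X _ 1⟩) (by
        rw [(commutator_eq_bot_iff_center_eq_top _).2, Subgroup.mem_bot]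
        · exact fun e => one_ne_zero (S.inj.x_eq_one (congrArg Subtype.val e))
        · rw [eq_top_iff]
          rintro ⟨a, ha⟩ -
          refine Subgroup.mem_center_iff.2 fun ⟨b, hb⟩ => Subtype.ext ?_
          obtain ⟨t, rfl⟩ := S.mem_U_singleton.1 ha
          obtain ⟨s, rfl⟩ := S.mem_U_singleton.1 hb
          exact S.x_comm_self _ _ _)
    refine ⟨μ.comp f, ?_, fun u hu => ?_⟩
    · have := hf ⟨S.x (R.simple i) 1, x_mem_X _ 1⟩ 1 (Subgroup.one_mem _)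
        (by rw [mul_one]; exact S.x_mem_U (R.pos_simple i) 1)
      simp only [mul_one] at this
      rwa [MonoidHom.comp_apply, this]
    · have := hf 1 u hu (by simp)
      simp only [Subgroup.coe_one, one_mul, Subtype.coe_eta] at this
      simp [this]
  choose ψ h1 h2 using h
  refine ⟨∏ i, ψ i, fun i => ⟨1, ?_⟩⟩
  rw [MonoidHom.finsetProd_apply, Finset.prod_eq_single i (fun j _ hj => h2 j _
    (S.x_mem_U (And.intro (R.pos_simple i) fun e => hj (R.simple_injective e).symm) 1)) (by simp)]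
  exact h1 i

open Classical in
theorem dbl_U (hS : S.grp = ⊤) : IsDblReps S.Up S.B
    ((Finset.univ : Finset R.W).map ⟨nn S, nn_inj⟩) := fun x => by
  obtain ⟨a, ha, c, hc, e⟩ := (mem_ty hS x).exists (nn_mem _) (nn_acts _)
  obtain ⟨u, hu, y, hy, rfl⟩ := S.nconj.mem_B.1 ha
  refine ⟨nn S (ty hS x), ⟨by simp, u, hu, _,
    S.B.mul_mem (S.H_le_B ((nn_acts (S := S) (ty hS x)).conj_mem_H' hy)) hc, ?_⟩, ?_⟩
  · conv_lhs => rw [e]
    simp [mul_assoc]
  · rintro _ ⟨hg, a', ha', h', hh', e'⟩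
    obtain ⟨w', -, rfl⟩ := Finset.mem_map.1 hg
    rw [ty_eq hS (e' ▸ ((nn_cell w').left (S.Up_le_B ha')).right hh')]; rfl

theorem inner_GG (hS : S.grp = ⊤) {ψ : S.Up →* ℂˣ} (hψ : ∀ i, ∃ t,
    ψ ⟨S.x (R.simple i) t, S.x_mem_U (R.pos_simple i) t⟩ ≠ 1) (lam : S.B →* ℂˣ)
    (hl : ∀ b : S.B, b.1 ∈ S.Up → lam b = 1) :
    classInner (indFun S.B (hf lam)) (indFun S.Up (hf ψ)) = 1 := by
  classical
  obtain ⟨w₀, -, h0⟩ := R.exists_longest (Set.univ : Set ι)
  rw [inner_ind2 _ _ (dbl_U hS), Finset.sum_map, Finset.sum_eq_single w₀ ?_ (by simp), if_pos]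
  · intro y e
    have hw' : S.Acts (nn S w₀)⁻¹ w₀ := by
      simpa only [longest_inv h0] using (nn_acts (S := S) w₀).inv
    have := mem_U_of_sup (fun _ h => h.1) ((conj_mem_B_iff_J h0 hw' (S.Up_le_B y.2)).1
      (by simpa using e)) y.2
    obtain rfl : y = 1 := Subtype.ext (Subgroup.mem_bot.1 (UJ_univ (S := S) ▸ this))
    rw [map_one]
    exact hl _ (by simp)
  · intro w _ hw
    rw [if_neg]
    intro h
    obtain ⟨i, hi⟩ : ∃ i, R.Pos (R.act w⁻¹ (R.simple i)) := by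
      by_contra k
      exact hw (inv_injective (((longest_iff h0 w⁻¹).2 ⟨by simp [R.WJ_univ],
        fun j _ e => k ⟨j, e⟩⟩).trans (longest_inv h0).symm))
    obtain ⟨t, ht⟩ := hψ i
    have k : (nn S w)⁻¹ * S.x (R.simple i) t * nn S w ∈ S.Up :=
      (nn_acts w).conj_mem_U' (T := {R.simple i}) (by rintro _ rfl; exact hi) (x_mem_X _ t)
    exact ht ((h ⟨_, S.x_mem_U (R.pos_simple i) t⟩ (S.Up_le_B k)).symm.trans (hl _ k))

section rank1

variable [Fintype F] (p : ℕ) [hp : Fact p.Prime] [CharP F p] {χ : G → ℂ}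

open Classical in
variable (S) in
/-- the character on the fixed points of `Qi` -/
noncomputable def th (χ : G → ℂ) (i : ι) (g : G) : ℂ :=
  (Nat.card (Qi S i) : ℂ)⁻¹ * ∑ u : Qi S i, χ (g * u)

theorem th_conj (hχ : IsClassFunction G χ) (i : ι) {m : G}
    (hm : m ∈ Subgroup.normalizer (Qi S i : Set G)) (g : G) :
    th S χ i (m⁻¹ * g * m) = th S χ i g := by
  classical
  rw [th, th, ← Equiv.sum_comp (cjE hm) fun u => χ (g * u)]
  congr 1
  refine Finset.sum_congr rfl fun u _ => ?_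
  rw [← hχ _ m]
  simp [cjE, mul_assoc]

theorem th_sing (hv : ∀ g, p ∣ orderOf g → χ g = 0) (i : ι) {y : G} (hy : y ∈ S.H) {t : F}
    (ht : t ≠ 0) (hc : Commute y (S.x (R.simple i) t)) : th S χ i (y * S.x (R.simple i) t) = 0 := by
  classical
  rw [th, Finset.sum_eq_zero fun u _ => hv _ ?_, mul_zero]
  by_contra hn
  have hx : ∀ k : ℕ, S.x (R.simple i) t ^ k = S.x (R.simple i) (k * t) := fun k => by
    induction k with
    | zero => simp
    | succ k ih => rw [pow_succ, ih, ← S.add]; push_cast; ring_nf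
  have h1 := pow_mem_coset (B_le_norm_Qi i (S.B.mul_mem (S.H_le_B hy)
    (S.Up_le_B (S.x_mem_U (R.pos_simple i) t)))) u.2 (orderOf (y * S.x (R.simple i) t * u))
  rw [pow_orderOf_eq_one, mul_one, Subgroup.inv_mem_iff, hc.mul_pow, hx] at h1
  have h2 := S.Up.mul_mem (S.U_mono (fun _ h => h.1) h1)
    (S.Up.inv_mem (S.x_mem_U (R.pos_simple i) (orderOf (y * S.x (R.simple i) t * u) * t)))
  rw [mul_inv_cancel_right] at h2
  rw [S.eq_one_of_mem_Up_H h2 (S.H.pow_mem hy _), one_mul] at h1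
  exact hn ((CharP.cast_eq_zero_iff F p _).1 ((mul_eq_zero.1 (eq_zero_of_Qi h1)).resolve_right ht))

open Classical in
theorem avg_Up (i : ι) (g : G) : (Nat.card S.Up : ℂ)⁻¹ * ∑ u : S.Up, χ (g * u) =
    (Fintype.card F : ℂ)⁻¹ * ∑ t, th S χ i (g * S.x (R.simple i) t) := by
  have hb : Function.Bijective fun t => (⟨S.x (R.simple i) t, x_mem_X _ t⟩ : S.U {R.simple i}) :=
    ⟨fun a b e => S.inj.x_injective _ (congrArg Subtype.val e), fun ⟨g, hg⟩ => by
      obtain ⟨t, rfl⟩ := S.mem_U_singleton.1 hg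
      exact ⟨t, rfl⟩⟩
  rw [sum_sup (mem_Up_iff i) (X_inf_Qi i), ← hb.sum_comp,
    ← Nat.card_eq_of_bijective _ (bij_sup (mem_Up_iff i) (X_inf_Qi i)), Nat.card_prod,
    ← Nat.card_eq_of_bijective _ hb, Nat.card_eq_fintype_card]
  simp only [th, ← Finset.mul_sum, mul_assoc]
  push_cast
  rw [mul_inv, mul_assoc]

open Classical in
theorem avg_h (hχ : IsClassFunction G χ) (hv : ∀ g, p ∣ orderOf g → χ g = 0) (i : ι) {s : F}
    (hs : s ≠ 0) : th S χ i (S.h (R.simple i) s) = (if s ^ 2 = 1 then (Fintype.card F : ℂ) else 1) *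
      ((Nat.card S.Up : ℂ)⁻¹ * ∑ u : S.Up, χ (S.h (R.simple i) s * u)) := by
  have hq : (Fintype.card F : ℂ) ≠ 0 := Nat.cast_ne_zero.2 Fintype.card_ne_zero
  rw [avg_Up i]
  split_ifs with h
  · rw [mul_inv_cancel_left₀ hq, Finset.sum_eq_single 0 (fun t _ ht =>
      th_sing p hv i (S.h_mem_H _ hs) ht (by rw [Commute, SemiconjBy, h_x hs, h, one_mul])) (by simp)]
    simp
  · rw [Finset.sum_congr rfl (g := fun _ => th S χ i (S.h (R.simple i) s)) fun t _ => ?_]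
    · simp [hq]
    have h1 : s ^ 2 - 1 ≠ 0 := sub_ne_zero.2 h
    rw [← th_conj hχ i (B_le_norm_Qi i (S.Up_le_B (S.x_mem_U (R.pos_simple i)
      (s ^ 2 * t / (s ^ 2 - 1))))) (S.h _ s), ← S.x_neg]
    congr 1
    rw [h_x hs, mul_assoc, h_x hs, ← mul_assoc, ← S.add]
    congr 2; field_simp; ring

open Classical in
theorem lam_h (h3 : S.R3) (hχ : IsCharacter G χ) (hv : ∀ g, p ∣ orderOf g → χ g = 0)
    (lam : S.H →* ℂˣ) (hl : ∀ y : S.H, (Nat.card S.Up : ℂ)⁻¹ * ∑ u : S.Up, χ (y * u) = lam y)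
    (i : ι) {t : F} (ht : t ≠ 0) : lam ⟨S.h (R.simple i) t, S.h_mem_H _ ht⟩ = 1 := by
  let ν : Fˣ →* ℂˣ := lam.comp ((h3.hHom (R.simple i)).codRestrict S.H
    fun c => S.h_mem_H _ c.ne_zero)
  suffices h : ν = 1 from DFunLike.congr_fun h (Units.mk0 t ht)
  have hq : (Fintype.card F : ℂ) ≠ 0 := Nat.cast_ne_zero.2 Fintype.card_ne_zero
  have h1 : ∀ s : Fˣ, th S χ i (S.h (R.simple i) s) =
      (if (s : F) ^ 2 = 1 then (Fintype.card F : ℂ) else 1) * ν s := fun s => by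
    rw [avg_h p (char_class hχ) hv i s.ne_zero]
    exact congrArg _ (hl ⟨_, S.h_mem_H _ s.ne_zero⟩)
  have hn : ∀ s, S.n (R.simple i) s ∈ Subgroup.normalizer (Qi S i : Set G) := fun s =>
    S.simple_le_normalizer i (by rw [← S.U_union]; exact S.n_mem_U (by simp) (by simp) s)
  have hnh : ∀ s : Fˣ, S.n (R.simple i) 1 * S.h (R.simple i) s * (S.n (R.simple i) 1)⁻¹ =
      S.h (R.simple i) (s⁻¹ : Fˣ) := fun s => by
    rw [mul_inv_eq_iff_eq_mul, n_mul_h h3 one_ne_zero s.ne_zero,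
      h_mul_n h3 (Units.ne_zero _) one_ne_zero]
    simp
  have h2 : ∀ s : Fˣ, ν s⁻¹ = ν s := fun s => by
    have := th_conj (char_class hχ) i (hn 1) (S.h (R.simple i) (s⁻¹ : Fˣ))
    rw [← hnh, show ∀ a b : G, a⁻¹ * (a * b * a⁻¹) * a = b by simp [mul_assoc], hnh, h1, h1] at this
    simp only [Units.val_inv_eq_inv_val, inv_pow, inv_eq_one] at this
    refine Units.ext (mul_left_cancel₀ ?_ this).symm
    split_ifs <;> simp [hq]
  by_cases hc : ringChar F = 2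
  · refine MonoidHom.ext fun s => ?_
    obtain ⟨r, hr⟩ := FiniteField.isSquare_of_char_two hc (s : F)
    have hr0 : r ≠ 0 := by rintro rfl; simp at hr
    rw [show s = Units.mk0 r hr0 * Units.mk0 r hr0 from Units.ext hr, map_mul]
    conv_lhs => enter [1]; rw [← h2]
    simp
  by_contra hν
  obtain ⟨n, ρ, rfl⟩ := hχ
  have hth : ∀ g, LinearMap.trace ℂ _ (ρ g * av ρ (Qi S i).subtype 1) = th S ρ.character i g :=
    fun g => by simpa [th, Representation.character] using trace_av ρ (Qi S i).subtype 1 g 1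
  have hc1 : ∀ g ∈ Subgroup.normalizer (Qi S i : Set G),
      ρ g * av ρ (Qi S i).subtype 1 = av ρ (Qi S i).subtype 1 * ρ g := fun g hg =>
    av_comm ρ _ _ (cjE hg) fun _ => ⟨rfl, rfl⟩
  have hc2 := av_comm' ρ (h3.hHom (R.simple i)) ν fun a =>
    hc1 _ (S.nconj.H_le_normalizer _ (S.h_mem_H _ a.ne_zero))
  have hc3 := av_comm ρ (h3.hHom (R.simple i)) ν (Equiv.inv Fˣ) fun a => ⟨hnh a, h2 a⟩
  have hcard : (Nat.card Fˣ : ℂ) = Fintype.card F - 1 := by
    rw [Nat.card_units, Nat.card_eq_fintype_card, Nat.cast_sub Fintype.card_pos]; simp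
  have hne : (Nat.card Fˣ : ℂ) ≠ 0 := Nat.cast_ne_zero.2 Nat.card_pos.ne'
  refine no_three (T := ρ (S.n (R.simple i) 1))
    (e := av ρ (h3.hHom (R.simple i)) ν * av ρ (Qi S i).subtype 1) ?_ ?_ (ν (-1)).ne_zero ?_ ?_ ?_
  · rw [mul_assoc, ← mul_assoc (av ρ (Qi S i).subtype 1), ← hc2, mul_assoc, av_idem, ← mul_assoc,
      av_idem]
  · rw [← mul_assoc, hc3, mul_assoc, hc1 _ (hn 1), mul_assoc]
  · rw [← map_mul, n_mul_n h3 one_ne_zero one_ne_zero, ← mul_assoc, ← smul_mul_assoc, ← av_left]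
    simp [R3.hHom]
  · have := trace_av ρ (h3.hHom (R.simple i)) ν 1 (av ρ (Qi S i).subtype 1)
    simp only [map_one, one_mul, hth] at this
    rw [this, Finset.sum_congr rfl (g := fun s : Fˣ => 1 + ((if s = 1 then (Fintype.card F : ℂ) - 1
      else 0) + if s = -1 then (Fintype.card F : ℂ) - 1 else 0)) fun s _ => ?_]
    · simp only [Finset.sum_add_distrib, Finset.sum_ite_eq', Finset.mem_univ, if_true,
        Finset.sum_const, Finset.card_univ, nsmul_eq_mul, ← Nat.card_eq_fintype_card (α := Fˣ),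
        ← hcard]
      field_simp; ring
    · have h5 : (1 : Fˣ) ≠ -1 := fun e => Ring.neg_one_ne_one_of_char_ne_two hc
        (by simpa using congrArg Units.val e.symm)
      erw [h1 s]
      rw [mul_left_comm, Units.inv_mul, mul_one]
      by_cases a : s = 1
      · simp [a, h5]
      by_cases b : s = -1
      · simp [b, h5.symm]
      rw [if_neg a, if_neg b, if_neg]
      · simp
      · rw [sq_eq_one_iff, not_or]
        exact ⟨fun e => a (Units.ext e), fun e => b (Units.ext e)⟩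
  · rw [← mul_assoc, trace_av]
    simp only [hth]
    rw [Finset.sum_congr rfl (g := fun s : Fˣ => (ν⁻¹ s : ℂ) * th S ρ.character i
      (S.n (R.simple i) 1)) fun s _ => ?_, ← Finset.sum_mul,
      show ∑ s, (ν⁻¹ s : ℂ) = 0 from sum_hom_units_eq_zero ((Units.coeHom ℂ).comp ν⁻¹) fun e =>
        hν (inv_eq_one.1 (MonoidHom.ext fun s => Units.ext (DFunLike.congr_fun e s))),
      zero_mul, mul_zero]
    obtain ⟨g, hg, e⟩ := n_conj h3 i hc (div_ne_zero one_ne_zero s.ne_zero)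
    erw [n_mul_h h3 one_ne_zero s.ne_zero]
    rw [e, th_conj (char_class ⟨n, ρ, rfl⟩) i (S.simple_le_normalizer i hg)]
    rfl

open Classical in
theorem dz_inner (hS : S.grp = ⊤) (h3 : S.R3) (hχ : IsIrrCharacter G χ)
    (hv : ∀ g, p ∣ orderOf g → χ g = 0) {ψ : S.Up →* ℂˣ} (hψ : ∀ i, ∃ t,
      ψ ⟨S.x (R.simple i) t, S.x_mem_U (R.pos_simple i) t⟩ ≠ 1) :
    classInner (indFun S.Up (hf ψ)) χ ≠ 0 ∧ classInner (indFun S.B fun _ => 1) χ ≠ 0 := by
  have hc := char_class (irr_char hχ)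
  have hU : ∀ f : S.Up → ℂ, ∑ u : S.Up, f u * χ u = f 1 * χ 1 := fun f => by
    rw [Finset.sum_eq_single 1 (fun u _ hu => ?_) (by simp)]; · rfl
    obtain ⟨k, hk⟩ := pel_of_mem p u.2
    rw [hv u (hk ▸ dvd_pow_self p fun e => hu (Subtype.ext (orderOf_eq_one_iff.1
      (by rw [hk, e, pow_zero])))), mul_zero]
  have hΓ : classInner χ (indFun S.Up (hf ψ)) = (Nat.card S.Up : ℂ)⁻¹ * χ 1 := by
    rw [inner_indFun_right _ _ hc, classInner]
    simp only [mul_comm (χ _), hU]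
    simp
  have h0 : (Nat.card S.Up : ℂ)⁻¹ * χ 1 ≠ 0 :=
    mul_ne_zero (inv_ne_zero (card_ne _)) (irr_one_ne_zero hχ)
  refine ⟨fun e => h0 (hΓ ▸ inner_eq_zero_symm.1 e), ?_⟩
  have hθ : IsCharacter S.H fun y => (Nat.card S.Up : ℂ)⁻¹ * ∑ u : S.Up, χ (y * u) := by
    obtain ⟨n, ρ, -, rfl⟩ := hχ
    have := isCharacter_proj (ρ.comp S.H.subtype) _ (av_idem ρ S.Up.subtype 1) fun y =>
      av_comm ρ _ _ (cjE (S.nconj.B_le_normalizer (S.H_le_B y.2))) fun _ => ⟨rfl, rfl⟩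
    convert this using 2 with y
    simpa [Representation.character] using (trace_av ρ S.Up.subtype 1 y 1).symm
  have hθ1 : (Nat.card S.Up : ℂ)⁻¹ * ∑ u : S.Up, χ ((1 : S.H) * u) =
      (Nat.card S.Up : ℂ)⁻¹ * χ 1 := by simpa using hU fun _ => 1
  obtain ⟨φ, hφ, hφ'⟩ := exists_irr_inner_ne_zero (char_class hθ)
    fun e => h0 (hθ1 ▸ congrFun e 1)
  obtain ⟨lam, rfl⟩ := irr_exists_hom_of_comm hφ fun a b =>
    Subtype.ext (S.nconj.H_comm h3 a.2 b.2)
  have hd : S.H ⊓ S.Up = ⊥ := inf_comm S.H S.Up ▸ S.Up_inf_H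
  obtain ⟨π, hπ⟩ := exists_proj' (mem_B_iff (S := S)) (S.H_le_B.trans S.nconj.B_le_normalizer) hd
  have hB : classInner χ (indFun S.B (hf (lam.comp π))) = classInner
      (fun y : S.H => (Nat.card S.Up : ℂ)⁻¹ * ∑ u : S.Up, χ (y * u)) fun y => lam y := by
    rw [inner_indFun_right _ _ hc, classInner, classInner, sum_sup mem_B_iff hd, card_B]
    simp only [hf, MonoidHom.comp_apply, hπ _ _ (Subtype.mem _), mul_assoc, ← Finset.mul_sum,
      Finset.sum_mul]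
    push_cast; ring
  have hGG := inner_GG hS hψ (lam.comp π) fun b hb => by
    have := hπ 1 b hb (by simp)
    simp only [Subgroup.coe_one, one_mul, Subtype.coe_eta] at this
    simp [this]
  rw [inner_char_symm (char_indFun _ (char_hom _)) (char_indFun _ (char_hom _))] at hGG
  have hB' : classInner (indFun S.B (hf (lam.comp π))) χ ≠ 0 :=
    fun e => hφ' (hB ▸ inner_eq_zero_symm.1 e)
  have h1 := (inner_prod_le (char_indFun _ (char_hom _)) (char_indFun _ (char_hom _)) hGG).1 χ hχ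
    (fun e => h0 (hΓ ▸ inner_eq_zero_symm.1 e)) hB'
  rw [inner_char_symm (char_indFun _ (char_hom _)) (irr_char hχ), hΓ, ← hθ1] at h1
  have h2 := irr_eq_of_inner_ne_zero (isIrr_of_degree_one hθ h1) hφ hφ'
  obtain rfl : lam = 1 := by
    refine MonoidHom.ext fun ⟨y, hy⟩ => show _ = (1 : ℂˣ) from ?_
    have hy' := hy
    rw [S.nconj.H_eq] at hy'
    induction hy' using Subgroup.closure_induction with
    | mem x hx =>
      obtain ⟨i, t, ht, rfl⟩ := hx
      exact lam_h p h3 (irr_char hχ) hv lam (congrFun h2) i ht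
    | one => exact map_one lam
    | mul a b ha hb iha ihb =>
      rw [← S.nconj.H_eq] at ha hb
      simpa [iha ha, ihb hb] using map_mul lam ⟨a, ha⟩ ⟨b, hb⟩
    | inv a ha iha =>
      rw [← S.nconj.H_eq] at ha
      have := map_inv lam ⟨a, ha⟩
      rwa [iha ha, inv_one] at this
  exact hB'

theorem eq_st (hS : S.grp = ⊤) (h3 : S.R3) (hχ : IsIrrCharacter G χ)
    (hv : ∀ g, p ∣ orderOf g → χ g = 0) : χ = st S := by
  obtain ⟨ψ, hψ⟩ := exists_psi (S := S)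
  have h1 := dz_inner p hS h3 hχ hv hψ
  have h2 := dz_inner p hS h3 (irr_st hS) (fun _ => st_vanish p hS h3) hψ
  have hGG := inner_GG hS hψ 1 fun _ _ => rfl
  exact (inner_prod_le (char_indFun _ (char_hom _)) (char_indFun _ (char_hom _)) hGG).2 _ _ hχ
    (irr_st hS) h1.2 h1.1 h2.2 h2.1

theorem eq_st_of_nu (hS : S.grp = ⊤) (h3 : S.R3) (hχ : IsIrrCharacter G χ)
    (h : nu p χ = (Nat.card G).factorization p) : χ = st S :=
  eq_st p hS h3 hχ fun _ => eq_zero_of_nu hp.out hχ h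

end rank1

end H4.St
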