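import Cfsg.Agent.H4.St3
import Cfsg.Agent.H4.Sect
import Cfsg.Agent.H6.CA11

/-! Blocks of Chevalley groups in the defining characteristic. -/

set_option autoImplicit false
set_option linter.unusedSectionVars false

namespace H4

open MonoidAlgebra Cfsg H1 H3
open scoped Pointwise ComplexConjugate

section blocks

variable {G : Type*} [Group G] [Finite G] {M : Ideal AlgInt} {p : ℕ} [hp : Fact p.Prime]

/-- defect groups are radical -/
theorem dg_radical (hM : IsPModular p M) {B : Set (IrrCharacter G)} (hB : IsPBlock M B)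
    {D Q : Subgroup G} (hD : IsDefectGroup p M B D) (hQ : IsPGroup p Q)
    (h : Subgroup.normalizer (D : Set G) ≤ Subgroup.normalizer (Q : Set G)) :
    Q ⊓ Subgroup.normalizer (D : Set G) ≤ D := by
  obtain ⟨b, hb, hbD⟩ := first_main_exists hM hB hD
  have : (Q.subgroupOf (Subgroup.normalizer (D : Set G))).Normal := ⟨fun x hx g =>
    (H6.norm_iff (h g.2) x.1).2 hx⟩
  have := normal_le_dg hM hb.1 hbD (P := Q.subgroupOf _) hQ.comap_subtype
  exact fun x hx => this (show (⟨x, hx.2⟩ : Subgroup.normalizer (D : Set G)) ∈ _ from hx.1)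

theorem le_dg (hM : IsPModular p M) {B : Set (IrrCharacter G)} (hB : IsPBlock M B)
    {D Q : Subgroup G} (hD : IsDefectGroup p M B D) (hQ : IsPGroup p Q)
    (h : Subgroup.normalizer (D : Set G) ≤ Subgroup.normalizer (Q : Set G)) : Q ≤ D := by
  have hDQ : D ≤ Subgroup.normalizer (Q : Set G) := Subgroup.le_normalizer.trans h
  by_contra hne
  have h1 := lt_normalizer_inf_of_isPGroup ((dg_isPGroup hD).to_sup_of_normal_right' hQ hDQ)
    (lt_of_le_of_ne le_sup_left fun e => hne (e ▸ le_sup_right))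
  refine h1.not_ge fun x ⟨hx, hx'⟩ => ?_
  have hx'' : x ∈ ((D ⊔ Q : Subgroup G) : Set G) := hx'
  rw [Subgroup.coe_mul_of_left_le_normalizer_right _ _ hDQ] at hx''
  obtain ⟨d, hd, q, hq, rfl⟩ := hx''
  exact D.mul_mem hd (dg_radical hM hB hD hQ h ⟨hq, by
    simpa using Subgroup.mul_mem _ (Subgroup.inv_mem _ (Subgroup.le_normalizer hd)) hx⟩)

theorem defect_dichotomy (hM : IsPModular p M) (h : ∀ D : Subgroup G, IsPGroup p D → D ≠ ⊥ →
    ∃ Q : Subgroup G, IsPGroup p Q ∧ Subgroup.normalizer (D : Set G) ≤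
      Subgroup.normalizer (Q : Set G) ∧ ∀ g, Q ≤ C1 g → ¬ p ∣ orderOf g → g ∈ Subgroup.center G)
    {B : Set (IrrCharacter G)} (hB : IsPBlock M B) :
    blockDefect p B = 0 ∨ blockDefect p B = (Nat.card G).factorization p := by
  obtain ⟨D, hD⟩ := exists_dg hM hB
  by_cases h0 : D = ⊥
  · left; rw [← dg_factorization hM hB hD, h0]; simp
  right
  obtain ⟨Q, h1, h2, h3⟩ := h D (dg_isPGroup hD) h0
  obtain ⟨g, k1, k2, k3⟩ := (isDefectGroup_iff hM hB).1 hD
  have := h3 g ((le_dg hM hB hD h1 h2).trans k3.le) (not_dvd_of_eB_ne_zero hM hB k1)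
  rw [← factorization_C1_of_defectClass hM hB k1 k2,
    show C1 g = ⊤ from Subgroup.centralizer_eq_top_iff_subset.2 (by simpa using this),
    Subgroup.card_top]

theorem eq_of_red_root (hM : IsPModular p M) {a b : ℂ} {n : ℕ} (hn : ¬ p ∣ n) (ha : a ^ n = 1)
    (hb : b ^ n = 1) (h : red M a = red M b) : a = b := by
  have hn0 : n ≠ 0 := by rintro rfl; simp at hn
  by_contra hne
  have h2 := (Commute.all a b).geom_sum₂_mul n
  rw [ha, hb, sub_self, mul_eq_zero, sub_eq_zero, or_iff_left hne] at h2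
  have ha' := mem_O_of_pow_eq_one (M := M) hn0 ha
  have hb' := mem_O_of_pow_eq_one (M := M) hn0 hb
  have h3 := congrArg (red M) h2
  rw [red_sum _ _ fun i _ => mul_mem (pow_mem ha' _) (pow_mem hb' _), red_zero,
    Finset.sum_congr rfl (g := fun _ => red M b ^ (n - 1)) fun i hi => by
      rw [red_mul (pow_mem ha' _) (pow_mem hb' _), red_pow ha', red_pow hb', h,
        ← pow_add]
      congr 1; have := Finset.mem_range.1 hi; omega] at h3
  rw [Finset.sum_const, Finset.card_range, nsmul_eq_mul, mul_eq_zero, natCast_eq_zero_iff hM,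
    or_iff_right hn] at h3
  have h4 := congrArg (red M) hb
  rw [red_pow hb', red_one, ← Nat.sub_add_cancel (Nat.pos_of_ne_zero hn0), pow_succ, h3] at h4
  simp at h4

theorem centralChar_center (χ : G → ℂ) {z : G} (hz : z ∈ Subgroup.center G) :
    centralChar χ z = χ z / χ 1 := by
  rw [centralChar, Subgroup.centralizer_eq_top_iff_subset.2 (by simpa using hz)]; simp

theorem central_eq_of_mem (hM : IsPModular p M) {B : Set (IrrCharacter G)} (hB : IsPBlock M B)
    {χ ψ : IrrCharacter G} (h : χ ∈ B) (h' : ψ ∈ B) {z : G} (hz : z ∈ Subgroup.center G)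
    (hz' : ¬ p ∣ orderOf z) : χ.1 z / χ.1 1 = ψ.1 z / ψ.1 1 := by
  refine eq_of_red_root hM hz' (central_pow_eq_one χ.2 hz (pow_orderOf_eq_one z))
    (central_pow_eq_one ψ.2 hz (pow_orderOf_eq_one z)) ?_
  rw [← centralChar_center _ hz, ← centralChar_center _ hz, ← lamB_cls hM hB h, lamB_cls hM hB h']

theorem full_eq (hM : IsPModular p M) (hC : ∀ g : G, ¬ p ∣ orderOf g →
    (Nat.card G).factorization p ≤ (Nat.card (C1 g)).factorization p → g ∈ Subgroup.center G)
    {B B' : Set (IrrCharacter G)} (hB : IsPBlock M B) (hB' : IsPBlock M B')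
    (h : blockDefect p B = (Nat.card G).factorization p)
    (h' : blockDefect p B' = (Nat.card G).factorization p) {χ ψ : IrrCharacter G} (hχ : χ ∈ B)
    (hψ : ψ ∈ B') (e : ∀ z ∈ Subgroup.center G, χ.1 z / χ.1 1 = ψ.1 z / ψ.1 1) : B = B' := by
  refine (block_eq_of_lamB_eB hM hB' hB fun h0 => ?_).symm
  obtain ⟨g, k1, k2⟩ := exists_cls_ne_zero (f := lamB M B - lamB M B') (eB_mem_Z B)
    (by simp [h0, lamB_eB_self hM hB])
  by_cases hg : g ∈ Subgroup.center G
  · exact k2 (by rw [LinearMap.sub_apply, lamB_cls hM hB hχ, lamB_cls hM hB' hψ,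
      centralChar_center _ hg, centralChar_center _ hg, e g hg, sub_self])
  have hg' := not_dvd_of_eB_ne_zero hM hB k1
  have a : lamB M B (cls (k M) g) = 0 := by
    by_contra c; exact hg (hC g hg' (h ▸ le_of_lamB_cls hM hB c))
  have b : lamB M B' (cls (k M) g) = 0 := by
    by_contra c; exact hg (hC g hg' (h' ▸ le_of_lamB_cls hM hB' c))
  exact k2 (by simp [a, b])

/-- the central character of an irreducible character -/
noncomputable def cHom (χ : IrrCharacter G) : Subgroup.center G →* ℂˣ :=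
  MonoidHom.toHomUnits ⟨⟨fun z => χ.1 z / χ.1 1, div_self (irr_one_ne_zero χ.2)⟩, fun a b => by
    simp only [Subgroup.coe_mul]
    rw [irr_mul_central χ.2 a.2, mul_div_assoc]⟩

theorem cHom_apply (χ : IrrCharacter G) (z : Subgroup.center G) :
    (cHom χ z : ℂ) = χ.1 z / χ.1 1 := rfl

theorem exists_full (hM : IsPModular p M) (hZ : ¬ p ∣ Nat.card (Subgroup.center G))
    (μ : Subgroup.center G →* ℂˣ) : ∃ χ : IrrCharacter G, cHom χ = μ ∧ nu p χ.1 = 0 := by
  classical
  have := Fintype.ofFinite G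
  obtain ⟨P⟩ : Nonempty (Sylow p G) := inferInstance
  have hd : Subgroup.center G ⊓ P = ⊥ := by
    rw [eq_bot_iff]
    exact fun x hx => (isPElt_of_mem hp.out P.2 hx.2).eq_one hp.out (not_dvd_orderOf_of_mem hZ hx.1)
  obtain ⟨π, hπ⟩ := exists_proj (N := Subgroup.center G) (K := P)
    (Subgroup.center_le_normalizer _) hd
  have hc := char_indFun (Subgroup.center G ⊔ P) (char_hom (μ.comp π))
  obtain ⟨c, h1, h2⟩ := char_eq_sum_nat hc
  have h3 := congrFun h2 1
  rw [indFun_one] at h3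
  simp only [map_one, Units.val_one, mul_one, Finset.sum_apply, Pi.smul_apply, smul_eq_mul,
    char_one_eq (irr_char (Subtype.prop _))] at h3
  have h4 : (Subgroup.center G ⊔ P).index = ∑ χ, c χ * charDegree χ.1 := by exact_mod_cast h3
  have h5 : ¬ p ∣ ∑ χ, c χ * charDegree χ.1 := h4 ▸ fun h =>
    P.not_dvd_index (h.trans (Subgroup.index_dvd_of_le le_sup_right))
  obtain ⟨χ, h6⟩ : ∃ χ, ¬ p ∣ c χ * charDegree χ.1 := by
    by_contra e
    exact h5 (Finset.dvd_sum fun χ _ => by_contra fun k => e ⟨χ, k⟩)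
  refine ⟨χ, MonoidHom.ext fun z => Units.ext ?_,
    Nat.factorization_eq_zero_of_not_dvd fun h => h6 (h.mul_left _)⟩
  have h7 := inner_shift (indFun (Subgroup.center G ⊔ P) fun g => ((μ.comp π) g : ℂ)) χ.2 z.2
  have h8 : (fun g => indFun (Subgroup.center G ⊔ P) (fun g => ((μ.comp π) g : ℂ)) (z * g)) =
      (μ z : ℂ) • indFun (Subgroup.center G ⊔ P) fun g => ((μ.comp π) g : ℂ) := by
    ext g
    simp only [indFun, Pi.smul_apply, smul_eq_mul, Finset.mul_sum]
    refine Finset.sum_congr rfl fun x _ => ?_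
    rw [mul_left_comm]
    congr 1
    have hz : (z : G) ∈ Subgroup.center G ⊔ P := Subgroup.mem_sup_left z.2
    rw [show x⁻¹ * (z * g) * x = z * (x⁻¹ * g * x) by
      rw [← mul_assoc, Subgroup.mem_center_iff.1 z.2]; simp [mul_assoc]]
    by_cases hx : x⁻¹ * g * x ∈ Subgroup.center G ⊔ P
    · rw [extendByZero_of_mem _ _ hx, extendByZero_of_mem _ _ (Subgroup.mul_mem _ hz hx)]
      have := hπ z 1 (Subgroup.one_mem _) (by simpa using hz)
      simp only [mul_one] at this
      rw [← Units.val_mul, ← congrArg μ this, ← MonoidHom.comp_apply, ← map_mul]; rfl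
    · rw [extendByZero_of_not_mem _ _ hx, extendByZero_of_not_mem _ _
        (by rwa [Subgroup.mul_mem_cancel_left _ hz]), mul_zero]
  rw [h8, H3.inner_smul_left, h1] at h7
  exact (mul_right_cancel₀ (Nat.cast_ne_zero.2 fun e => h6 (by simp [e])) h7).symm

theorem full_blockOf (hM : IsPModular p M) {χ : IrrCharacter G} (h : nu p χ.1 = 0) :
    blockDefect p (blockOf M χ.1) = (Nat.card G).factorization p := by
  have := mB_le (p := p) (mem_blockOf_self hM χ)
  rw [blockDefect_eq]; omega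

theorem card_full (hM : IsPModular p M) (hZ : ¬ p ∣ Nat.card (Subgroup.center G))
    (hC : ∀ g : G, ¬ p ∣ orderOf g →
      (Nat.card G).factorization p ≤ (Nat.card (C1 g)).factorization p → g ∈ Subgroup.center G) :
    Nat.card {B : Set (IrrCharacter G) // IsPBlock M B ∧
      blockDefect p B = (Nat.card G).factorization p} = Nat.card (Subgroup.center G) := by
  choose f h1 h2 using exists_full hM hZ
  rw [← card_hom_of_comm fun a b : Subgroup.center G =>
    Subtype.ext (Subgroup.mem_center_iff.1 b.2 a)]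
  refine (Nat.card_eq_of_bijective (fun μ => ⟨blockOf M (f μ).1, isPBlock_blockOf (f μ).2,
    full_blockOf hM (h2 μ)⟩) ⟨fun a b e => ?_, fun ⟨B, hB, hB'⟩ => ?_⟩).symm
  · rw [← h1 a, ← h1 b]
    refine MonoidHom.ext fun z => Units.ext (central_eq_of_mem hM (isPBlock_blockOf (f a).2)
      (mem_blockOf_self hM _) ?_ z.2 (not_dvd_orderOf_of_mem hZ z.2))
    exact (show blockOf M (f a).1 = blockOf M (f b).1 from Subtype.ext_iff.1 e) ▸
      mem_blockOf_self hM _
  · obtain ⟨χ, hχ⟩ := block_nonempty hM hB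
    refine ⟨cHom χ, Subtype.ext (full_eq hM hC (isPBlock_blockOf (f _).2) hB
      (full_blockOf hM (h2 _)) hB' (mem_blockOf_self hM _) hχ fun z hz => ?_)⟩
    rw [← cHom_apply _ ⟨z, hz⟩, h1, cHom_apply]

end blocks

namespace St

open H6 H6.StSys H6.ChevSys

variable {Φ ι : Type} [Fintype ι] [DecidableEq ι] {R : RS Φ ι} {F : Type*} [Field F]
  {G : Type*} [Group G] [Fintype Φ] {S : ChevSys R F G}

theorem exists_root (hR : R.Irred) {J : Set ι} (hJ : ∃ i, i ∉ J) {j : ι} (hj : j ∈ J) :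
    ∃ r, R.Pos r ∧ ¬ R.InJ J r ∧ 0 < R.A j r := by
  suffices h : ∃ r, ¬ R.InJ J r ∧ R.A j r ≠ 0 by
    obtain ⟨r, h1, h2⟩ := h
    wlog h3 : R.Pos r generalizing r
    · exact this (R.neg r) (by rwa [R.inJ_neg]) (by rwa [R.A_neg, neg_ne_zero])
        ((R.pos_neg_iff r).2 h3)
    rcases h2.lt_or_gt with h | h
    · refine ⟨R.refl j r, ?_, by rwa [R.inJ_refl hj], by rw [R.A_refl_self]; omega⟩
      exact (R.pos_act_WJ (R.s_mem_WJ hj) h1).2 h3
    · exact ⟨r, h3, h1, h⟩
  by_contra hc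
  obtain ⟨i, hi⟩ := hJ
  obtain ⟨a, ha, b, hb, h1, h2⟩ := hR {j | j ∈ J ∧ ¬ ∃ r, ¬ R.InJ J r ∧ R.A j r ≠ 0} ⟨j, hj, hc⟩
    ⟨i, fun h => hi h.1⟩
  by_cases hbJ : b ∈ J
  · obtain ⟨r, k1, k2⟩ : ∃ r, ¬ R.InJ J r ∧ R.A b r ≠ 0 := by_contra fun e => hb ⟨hbJ, e⟩
    have k3 : R.A a r = 0 := by_contra fun e => ha.2 ⟨r, k1, e⟩
    refine ha.2 ⟨R.refl b r, by rwa [R.inJ_refl hbJ], ?_⟩
    rw [R.A_refl, k3, zero_sub, neg_ne_zero]
    exact mul_ne_zero k2 h1
  · exact ha.2 ⟨R.simple b, by rwa [R.inJ_simple], h1⟩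

theorem conj_lead {r : Φ} (hr : R.Pos r) {u y : G} (hu : u ∈ S.Up) {c : Φ → F}
    (hy : S.ActsC y 1 c) (t : F) : ∃ k ∈ S.U {s | R.ht r + 1 ≤ R.ht s},
      u * y * S.x r t * (u * y)⁻¹ = S.x r (c r * t) * k := by
  obtain ⟨k, hk, e⟩ := S.exists_comm_filt (f := fun _ => 1) R.closed_pos
    (fun _ h => R.fv_one_pos h) (m := R.ht r) (T' := {s | R.ht r + 1 ≤ R.ht s})
    (fun s hs => ⟨R.pos_iff_ht.2 (by have := R.ht_pos hr; simp at hs; omega),
      by rw [R.fv_one]; simp at hs; omega⟩) (fun s _ hs => by rwa [R.fv_one] at hs) hr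
    (by rw [R.fv_one]) (c r * t) (S.Up.inv_mem hu)
  refine ⟨k, hk, ?_⟩
  have := hy.conj r t
  rw [R.act_one] at this
  rw [mul_inv_rev, mul_assoc u, mul_assoc u, ← mul_assoc (y * _), this, e]
  simp [mul_assoc]

theorem inj_ht {r : Φ} (hr : R.Pos r) {t : F} (h : S.x r t ∈ S.U {s | R.ht r + 1 ≤ R.ht s}) :
    t = 0 :=
  S.inj (fun _ => 1) _ _ (R.fv_one_pos hr) (S.U_mono (fun s (hs : R.ht r + 1 ≤ R.ht s) =>
    And.intro (fun e => by rw [e] at hs; omega) (show R.fv _ r ≤ R.fv _ s by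
      rw [R.fv_one, R.fv_one]; omega)) h)

theorem cent_le_B (hS : S.grp = ⊤) (hR : R.Irred) {J : Set ι} (hJ : ∃ i, i ∉ J) :
    Subgroup.centralizer (S.UJ J : Set G) ≤ S.B := by
  have hN : ∀ g ∈ S.P J, g ∈ Subgroup.normalizer (Subgroup.centralizer (S.UJ J : Set G) : Set G) :=
    fun g hg => Subgroup.mem_normalizer_iff.2 fun x =>
      (mem_centralizer_conj_iff (S.nconj.P_le_normalizer J hg) x).symm
  have hP : Subgroup.centralizer (S.UJ J : Set G) ≤ S.P J := by
    rw [← S.normalizer_UJ, hS, inf_top_eq]; exact Subgroup.centralizer_le_normalizer _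
  have h1 := S.eq_P (M := S.B ⊔ Subgroup.centralizer (S.UJ J : Set G)) le_sup_left (hS ▸ le_top)
  suffices h : {i | S.n (R.simple i) 1 ∈ S.B ⊔ Subgroup.centralizer (S.UJ J : Set G)} = ∅ by
    rw [h, P_empty] at h1
    exact h1 ▸ le_sup_right
  refine Set.eq_empty_of_forall_notMem fun j hj => ?_
  have hjJ : j ∈ J := by
    obtain ⟨w, hw, h⟩ := mem_P.1 (sup_le (S.B_le_P J) hP hj)
    obtain rfl := cell_unique h (Cell.self (S.n_mem_N _ one_ne_zero) (S.nconj.acts j one_ne_zero))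
    exact mem_of_neg hw (by simpa [R.pos_neg_iff] using R.pos_simple j)
  obtain ⟨r, k1, k2, k3⟩ := exists_root hR hJ hjJ
  have hj' : S.n (R.simple j) 1 ∈ ((S.B ⊔ Subgroup.centralizer (S.UJ J : Set G) : Subgroup G) :
    Set G) := hj
  rw [Subgroup.coe_mul_of_left_le_normalizer_right _ _ fun g hg => hN g (S.B_le_P J hg)] at hj'
  obtain ⟨b, hb, c, hc, e⟩ := hj'
  obtain ⟨u, hu, y, hy, rfl⟩ := S.nconj.mem_B.1 hb
  obtain ⟨d, hd⟩ := S.nconj.acts_of_mem_H hy
  obtain ⟨k, hk, e'⟩ := conj_lead k1 hu hd 1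
  have h2 := S.nconj j 1 one_ne_zero r 1
  have h3 : c * S.x r 1 * c⁻¹ = S.x r 1 := by
    rw [← hc _ (S.x_mem_U (And.intro k1 k2) 1)]; simp
  rw [← e, show ∀ a c x : G, a * c * x * (a * c)⁻¹ = a * (c * x * c⁻¹) * a⁻¹ by
    simp [mul_assoc], h3, e'] at h2
  have h4 := R.ht_refl j r
  have h5 : R.Pos (R.refl j r) := (R.pos_act_WJ (R.s_mem_WJ hjJ) k2).2 k1
  have := inj_ht h5 (h2 ▸ Subgroup.mul_mem _
    (S.x_mem_U (show R.ht (R.refl j r) + 1 ≤ R.ht r by omega) _)
    (S.U_mono (fun s (hs : R.ht r + 1 ≤ R.ht s) => show R.ht (R.refl j r) + 1 ≤ R.ht s by omega) hk))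
  have h6 := eta_cast_sq (F := F) (R := R) j r
  simp only [one_zpow, mul_one] at this
  simp [this] at h6

variable [Finite G] [Finite F] (p : ℕ) [hp : Fact p.Prime] [CharP F p]

theorem central_of_cent (hS : S.grp = ⊤) (h3 : S.R3) (hR : R.Irred) {J : Set ι} (hJ : ∃ i, i ∉ J)
    {g : G} (hg : g ∈ Subgroup.centralizer (S.UJ J : Set G)) (hg' : ¬ p ∣ orderOf g) :
    g ∈ Subgroup.center G := by
  have := Fintype.ofFinite G
  obtain ⟨u, hu, y, hy, rfl⟩ := S.nconj.mem_B.1 (cent_le_B hS hR hJ hg)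
  obtain ⟨c, hc⟩ := S.nconj.acts_of_mem_H hy
  have hx : ∀ r t, y * S.x r t * y⁻¹ = S.x r (c r * t) := hc.conj
  have h1 : ∀ r, R.Pos r → ¬ R.InJ J r → c r = 1 := fun r k1 k2 => by
    obtain ⟨k, hk, e⟩ := conj_lead k1 hu hc 1
    rw [← hg _ (S.x_mem_U (And.intro k1 k2) 1), mul_inv_cancel_right, ← inv_mul_eq_iff_eq_mul,
      ← S.x_neg, ← S.add] at e
    linear_combination -inj_ht k1 (e ▸ hk)
  have h2 : y ∈ Subgroup.centralizer (S.UJ J : Set G) := fun v hv => by
    refine S.U_induction (p := fun v => v * y = y * v) (by simp) (fun a _ r hr t ih => ?_) hv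
    have := hx r t
    rw [h1 r hr.1 hr.2, one_mul, mul_inv_eq_iff_eq_mul] at this
    rw [mul_assoc, ← this, ← mul_assoc, ih, mul_assoc]
  have h4 : ∀ j, c (R.neg (R.simple j)) = 1 := fun j => by
    by_cases hj : j ∈ J
    swap
    · rw [hc.neg, h1 _ (R.pos_simple j) (by rwa [R.inJ_simple]), inv_one]
    have k : S.x (R.neg (R.simple j)) 1 ∈ S.P J := by
      rw [S.nconj.P_eq]
      exact Subgroup.mem_sup_right (S.x_mem_U (Or.inr (R.inJ_neg.2 (R.inJ_simple.2 hj))) 1)
    have := cent_le_B hS hR hJ (Subgroup.mul_mem _ h2 ((mem_centralizer_conj_iff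
      (S.nconj.P_le_normalizer J k) y⁻¹).2 (Subgroup.inv_mem _ h2)))
    rw [← mul_assoc, ← mul_assoc, hx, ← S.x_neg, ← S.add] at this
    linear_combination S.eq_zero_of_x_mem_B ((R.pos_neg_iff _).not.2 (not_not.2 (R.pos_simple j))) this
  have h5 : y ∈ Subgroup.center G := by
    have := S.nconj.grp_le_of_simple' (K := C1 y) (fun j t => mem_centralizer_singleton.2 (by
      have := hx (R.simple j) t
      rwa [← inv_inv (c _), ← hc.neg, h4, inv_one, one_mul, mul_inv_eq_iff_eq_mul] at this))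
      fun j t => mem_centralizer_singleton.2 (by
        have := hx (R.neg (R.simple j)) t
        rwa [h4, one_mul, mul_inv_eq_iff_eq_mul] at this)
    exact Subgroup.mem_center_iff.2 fun g =>
      (mem_centralizer_singleton.1 (this (hS ▸ Subgroup.mem_top g))).symm
  have h6 : ¬ p ∣ orderOf y⁻¹ := fun h => by
    rw [orderOf_inv] at h
    have k := h.trans (orderOf_dvd_of_pow_eq_one (S.nconj.pow_card_H h3 hy))
    have := Fintype.ofFinite F
    obtain ⟨n, -, hn⟩ := FiniteField.card F p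
    rw [Nat.card_eq_fintype_card, hn] at k
    exact hp.out.one_lt.ne' (Nat.dvd_one.1 ((Nat.dvd_sub_iff_right (Nat.one_le_pow _ _ hp.out.pos)
      (dvd_pow_self p n.ne_zero)).1 k))
  have h7 := not_dvd_orderOf_mul hp.out (Subgroup.mem_center_iff.1 (Subgroup.inv_mem _ h5) _) hg' h6
  rw [mul_inv_cancel_right] at h7
  rw [IsPElt.eq_one hp.out (pel_of_mem p hu) h7, one_mul]
  exact h5

variable {p} {M : Ideal AlgInt}

theorem dichotomy (hS : S.grp = ⊤) (h3 : S.R3) (hR : R.Irred) (hM : IsPModular p M)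
    {B : Set (IrrCharacter G)} (hB : IsPBlock M B) :
    blockDefect p B = 0 ∨ blockDefect p B = (Nat.card G).factorization p := by
  refine defect_dichotomy hM (fun D hD h0 => ?_) hB
  obtain ⟨g, -, hg⟩ := exists_conj_le_Up p h3 (X := D) (hS ▸ le_top) hD
  obtain ⟨g', -, J, hJ, -, h2⟩ := borel_tits (S := S) (X := MulAut.conj g⁻¹ • D)
    (by rintro _ ⟨y, hy, rfl⟩; simpa using hg y hy) (by rwa [Ne, conj_smul_eq_bot_iff])
  have hU : IsPGroup p (S.UJ J) := by have := Fintype.ofFinite G; exact (pU p).to_le (UJ_le_Up J)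
  refine ⟨MulAut.conj (g * g') • S.UJ J, hU.map _, fun n hn => ?_, fun x hx hx' => ?_⟩
  · have := S.nconj.P_le_normalizer J (h2 (g⁻¹ * n * g) (hS ▸ Subgroup.mem_top _) (by
      rw [normalizer_conj_smul, mem_conj_smul]
      simpa [mul_assoc] using hn))
    rw [normalizer_conj_smul, mem_conj_smul]
    simpa [mul_assoc] using this
  · have := central_of_cent p hS h3 hR hJ (g := (g * g')⁻¹ * x * (g * g')) (fun u hu => by
      have := mem_centralizer_singleton.1 (hx (Subgroup.smul_mem_pointwise_smul _ _ _ hu))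
      rw [← mul_right_inj (g * g'), ← mul_left_inj (g * g')⁻¹]
      simpa [mul_assoc] using this.eq.symm)
      (by rwa [← orderOf_isConj (x := x) (isConj_iff.2 ⟨(g * g')⁻¹, by rw [inv_inv]⟩)])
    have := (inferInstance : (Subgroup.center G).Normal).conj_mem _ this (g * g')
    simpa [mul_assoc] using this

theorem center_le_H (hS : S.grp = ⊤) : Subgroup.center G ≤ S.H := fun g hg =>
  S.mem_H_of_central (hS ▸ Subgroup.mem_top g) fun r t => by
    rw [← Subgroup.mem_center_iff.1 hg]; simp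

variable (p) in
theorem not_dvd_center (hS : S.grp = ⊤) (h3 : S.R3) : ¬ p ∣ Nat.card (Subgroup.center G) := fun h => by
  have := Fintype.ofFinite G
  obtain ⟨z, hz⟩ := exists_prime_orderOf_dvd_card' p h
  have h1 : IsPGroup p (Subgroup.zpowers (z : G)) :=
    IsPGroup.of_card (n := 1) (by rw [Nat.card_zpowers, Subgroup.orderOf_coe, hz, pow_one])
  obtain ⟨g, -, hg⟩ := exists_conj_le_Up p h3 (hS ▸ le_top) h1
  have := hg z (Subgroup.mem_zpowers _)
  rw [Subgroup.mem_center_iff.1 z.2, inv_mul_cancel_right] at this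
  have := S.eq_one_of_mem_Up_H this (center_le_H hS z.2)
  rw [← Subgroup.orderOf_coe, this, orderOf_one] at hz
  exact hp.out.one_lt.ne hz

theorem full_central [Nonempty ι] (hS : S.grp = ⊤) (h3 : S.R3) (hR : R.Irred) (g : G)
    (hg : ¬ p ∣ orderOf g)
    (h : (Nat.card G).factorization p ≤ (Nat.card (C1 g)).factorization p) :
    g ∈ Subgroup.center G := by
  have := Fintype.ofFinite G
  obtain ⟨D, hD⟩ := exists_isSylowIn (p := p) (C1 g)
  have h1 : IsSylowIn p D ⊤ := (isSylowIn_top (sylU p hS h3)).of_card_le hD.isPGroup le_top (by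
    rw [hD.card_eq, (sylU p hS h3).card_eq_multiplicity]
    exact Nat.pow_le_pow_right hp.out.pos h)
  obtain ⟨x, -, hx⟩ := h1.conj (isSylowIn_top (sylU p hS h3))
  have := central_of_cent p hS h3 hR (J := ∅) ⟨Classical.arbitrary ι, id⟩ (g := x * g * x⁻¹)
    (le_centralizer_singleton.1 ((UJ_le_Up ∅).trans (by
      exact hx.ge.trans ((conj_smul_mono x hD.le).trans (C1_conj x g).ge))))
    (by rwa [← orderOf_isConj (x := g) (isConj_iff.2 ⟨x, rfl⟩)])
  have := (inferInstance : (Subgroup.center G).Normal).conj_mem _ this x⁻¹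
  simpa [mul_assoc] using this

theorem card_dz (hS : S.grp = ⊤) (h3 : S.R3) (hM : IsPModular p M) :
    Nat.card {B : Set (IrrCharacter G) // IsPBlock M B ∧ blockDefect p B = 0} = 1 := by
  have := Fintype.ofFinite G
  have := Fintype.ofFinite F
  refine Nat.card_eq_one_iff_exists.2 ⟨⟨blockOf M (st S), isPBlock_blockOf (irr_st hS),
    (blockDefect_blockOf_eq_zero_iff hM (χ := ⟨_, irr_st hS⟩)).2 (nu_st p hS h3)⟩,
    fun ⟨B, hB, h⟩ => Subtype.ext ?_⟩
  obtain ⟨χ, hχ⟩ := block_nonempty hM hB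
  exact (eq_blockOf hM hB hχ).trans
    (congrArg _ (eq_st_of_nu p hS h3 χ.2 (nu_eq_of_blockDefect_eq_zero h hχ)))

theorem fact_pos [Nonempty ι] (hS : S.grp = ⊤) (h3 : S.R3) : (Nat.card G).factorization p ≠ 0 :=
  fun h => by
  have := Fintype.ofFinite G
  have h1 := card_Up_eq p hS h3
  rw [h, pow_zero, Subgroup.card_eq_one] at h1
  have h2 : S.x (R.simple (Classical.arbitrary ι)) 1 ∈ S.Up := S.x_mem_U (R.pos_simple _) 1
  exact one_ne_zero (S.inj.x_eq_one (Subgroup.mem_bot.1 (h1 ▸ h2)))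

theorem card_blocks [Nonempty ι] (hS : S.grp = ⊤) (h3 : S.R3) (hR : R.Irred) (hM : IsPModular p M) :
    Nat.card {B : Set (IrrCharacter G) // IsPBlock M B} = Nat.card (Subgroup.center G) + 1 := by
  classical
  rw [← card_dz hS h3 hM, ← card_full hM (not_dvd_center p hS h3) (full_central hS h3 hR),
    ← Nat.card_sum]
  refine Nat.card_congr (((Equiv.sumCongr ?_ ?_).trans (Equiv.sumCompl fun B : {B // IsPBlock M B} =>
    blockDefect p B.1 = (Nat.card G).factorization p)).symm)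
  · exact (Equiv.subtypeSubtypeEquivSubtypeInter _ _).symm
  · refine (Equiv.subtypeEquivRight fun B => ?_).trans (Equiv.subtypeSubtypeEquivSubtypeInter _
      fun B => ¬ blockDefect p B = (Nat.card G).factorization p).symm
    exact and_congr_right fun hB => ⟨fun h e => fact_pos hS h3 (e ▸ h),
      (dichotomy hS h3 hR hM hB).resolve_right⟩

open H6.CA Matrix in
variable (F) in
/-- the Chevalley system of `SL` -/
def sysSL (l : ℕ) : ChevSys (rsA l) F (SpecialLinearGroup (Fin (l + 1)) F) where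
  toStSys := stA F l
  nconj := stA_nconj
  nd := (sysA F l).nd.comap (θ := QuotientGroup.mk' _) (fun _ _ => rfl) (sysA F l).inj
  inj := (sysA F l).inj.comap (θ := QuotientGroup.mk' _) fun _ _ => rfl

open H6.CA in
theorem sysSL_top (l : ℕ) : (sysSL F l).grp = ⊤ :=
  H5.eq_top_of_transvection_mem ((stA F l).U _) fun i j h c => (stA F l).x_mem_grp ⟨(i, j), h⟩ c

open H6.CA Matrix in
theorem sysSL_r3 (l : ℕ) : (sysSL F l).R3 := fun r t u ht hu => by
  change (stA F l).h r t * (stA F l).h r u = (stA F l).h r (t * u)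
  rw [stA_h r ht, stA_h r hu, stA_h r (mul_ne_zero ht hu)]
  refine H5.SL_ext ?_
  rw [Matrix.SpecialLinearGroup.coe_mul]
  simp only [SpecialLinearGroup.diag2n_coe, diagonal_mul_diagonal]
  congr 1; ext a; split_ifs <;> simp [mul_comm]

open H6.CA in
theorem irred_A (l : ℕ) : (rsA l).Irred := fun J ⟨a, ha⟩ ⟨b, hb⟩ => by
  by_contra h
  have key : ∀ i j : Fin l, (j : ℕ) = i + 1 → (i ∈ J ↔ j ∈ J) := fun i j e => by
    have hij : i ≠ j := fun k => by rw [k] at e; omega
    have := bond_A hij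
    rw [if_pos (.inl e)] at this
    have k := mul_ne_zero_iff.1 (this ▸ one_ne_zero)
    exact ⟨fun hi => by_contra fun hj => h ⟨i, hi, j, hj, k⟩,
      fun hj => by_contra fun hi => h ⟨j, hj, i, hi, k.symm⟩⟩
  have all : ∀ (k : ℕ) (hk : k < l), (⟨k, hk⟩ ∈ J ↔ ⟨0, by omega⟩ ∈ J) := fun k => by
    induction k with
    | zero => exact fun _ => Iff.rfl
    | succ k ih => exact fun hk => (key ⟨k, by omega⟩ ⟨k + 1, hk⟩ rfl).symm.trans (ih _)
  exact hb ((all b.1 b.2).2 ((all a.1 a.2).1 ha))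

end St

end H4
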